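import Cfsg.Agent.Lib.Helper26.M23Gen

set_option autoImplicit false

open scoped Pointwise

namespace Cfsg.Agent.Lib.Helper26

open Cfsg.Agent.Lib.Helper7

/-! ### Generating pairs of the stabiliser of the extra point (data generated by a script) -/

/-- The packed table is that of the identity. -/
def isIdT (t : ℕ) : Bool := (List.range 24).all fun i => nlane t i == i

theorem eq_one_of_isIdT {σ : Equiv.Perm Cfsg.GolayPt} {t : ℕ} (h : RepT σ t)
    (hi : isIdT t = true) : σ = 1 := by
  apply Equiv.ext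
  intro p
  rw [h p]
  have h1 := List.all_eq_true.mp hi (idx p) (List.mem_range.mpr (idx_lt p))
  have h2 : nlane t (idx p) = idx p := by simpa using h1
  rw [h2, pt_idx]
  rfl

theorem ne_one_of_isIdT {σ : Equiv.Perm Cfsg.GolayPt} {t : ℕ} (h : RepT σ t)
    (hi : isIdT t = false) : σ ≠ 1 := by
  intro h1
  have h2 : isIdT t = true := by
    apply List.all_eq_true.mpr
    intro i hi'
    have hi24 : i < 24 := List.mem_range.mp hi'
    have h3 := h.apply_pt hi24
    rw [h1] at h3
    have h4 : pt i = pt (nlane t i) := h3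
    have h5 := congrArg idx h4
    rw [idx_pt hi24, idx_pt (nlane_lt _ _)] at h5
    simp [← h5]
  rw [hi] at h2
  exact absurd h2 (by simp)

/-- The check of one generating pair: the words `wx`, `wy` in the letters give elements of
orders `p`, `q` fixing the extra point with product of order `r`; the word `wa` in the two
elements has order `23` and the power `253` of the word `wb` is not the identity. -/
def genChk (p q r : ℕ) (wx wy wa wb : List ℕ) : Bool :=
  (nlane (evalT ltabs2 wx) 23 == 23) && (nlane (evalT ltabs2 wy) 23 == 23) &&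
  isIdT (powT (evalT ltabs2 wx) p) && !(isIdT (evalT ltabs2 wx)) &&
  isIdT (powT (evalT ltabs2 wy) q) && !(isIdT (evalT ltabs2 wy)) &&
  isIdT (powT (mulT (evalT ltabs2 wx) (evalT ltabs2 wy)) r) &&
  !(isIdT (mulT (evalT ltabs2 wx) (evalT ltabs2 wy))) &&
  isIdT (powT (evalT [evalT ltabs2 wx, evalT ltabs2 wy] wa) 23) &&
  !(isIdT (evalT [evalT ltabs2 wx, evalT ltabs2 wy] wa)) &&
  !(isIdT (powT (evalT [evalT ltabs2 wx, evalT ltabs2 wy] wb) 253))

theorem fix_none_of {σ : Equiv.Perm Cfsg.GolayPt} {t : ℕ} (h : RepT σ t)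
    (hi : (nlane t 23 == 23) = true) : σ none = none := by
  rw [h none]
  have h1 : nlane t 23 = 23 := by simpa using hi
  show pt (nlane t 23) = none
  rw [h1]
  rfl

theorem order_of_chk {σ : Equiv.Perm Cfsg.GolayPt} {t : ℕ} (h : RepT σ t) {p : ℕ}
    (hp : p.Prime) (h1 : isIdT (powT t p) = true) (h2 : (!(isIdT t)) = true) :
    orderOf σ = p := by
  have : Fact p.Prime := ⟨hp⟩
  apply orderOf_eq_prime
  · exact eq_one_of_isIdT (repT_pow h p) h1
  · exact ne_one_of_isIdT h (by simpa using h2)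

/-- A checked pair generates the stabiliser of the extra point. -/
theorem gen_triple (p q r : ℕ) (hp : p.Prime) (hq : q.Prime) (hr : r.Prime)
    (wx wy wa wb : List ℕ) (h : genChk p q r wx wy wa wb = true) :
    ∃ x y z : ↥Cfsg.Spor.M23, orderOf x = p ∧ orderOf y = q ∧ orderOf z = r ∧ x * y * z = 1 ∧
      Subgroup.closure {x, y} = ⊤ := by
  unfold genChk at h
  simp only [Bool.and_eq_true] at h
  obtain ⟨⟨⟨⟨⟨⟨⟨⟨⟨⟨c1, c2⟩, c3⟩, c4⟩, c5⟩, c6⟩, c7⟩, c8⟩, c9⟩, c10⟩, c11⟩ := h
  have hX : RepT (evalW letters2 wx) (evalT ltabs2 wx) := repT_evalW letters2_rep wx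
  have hY : RepT (evalW letters2 wy) (evalT ltabs2 wy) := repT_evalW letters2_rep wy
  have hXm : evalW letters2 wx ∈ M23P :=
    ⟨evalW_mem _ letters2_mem_M24 wx, fix_none_of hX c1⟩
  have hYm : evalW letters2 wy ∈ M23P :=
    ⟨evalW_mem _ letters2_mem_M24 wy, fix_none_of hY c2⟩
  have hXo : orderOf (evalW letters2 wx) = p := order_of_chk hX hp c3 c4
  have hYo : orderOf (evalW letters2 wy) = q := order_of_chk hY hq c5 c6
  have hXYo : orderOf (evalW letters2 wx * evalW letters2 wy) = r :=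
    order_of_chk (hX.mul hY) hr c7 c8
  have hL : List.Forall₂ RepT [evalW letters2 wx, evalW letters2 wy]
      [evalT ltabs2 wx, evalT ltabs2 wy] :=
    List.Forall₂.cons hX (List.Forall₂.cons hY List.Forall₂.nil)
  have hK : Subgroup.closure ({evalW letters2 wx, evalW letters2 wy} :
      Set (Equiv.Perm Cfsg.GolayPt)) ≤ M23P := by
    rw [Subgroup.closure_le]
    intro g hg
    rcases hg with rfl | rfl
    · exact hXm
    · exact hYm
  have hLm : ∀ σ ∈ [evalW letters2 wx, evalW letters2 wy],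
      σ ∈ Subgroup.closure ({evalW letters2 wx, evalW letters2 wy} :
        Set (Equiv.Perm Cfsg.GolayPt)) := by
    intro σ hσ
    apply Subgroup.subset_closure
    simpa using hσ
  have hgen := M23_gen _ hK (evalW_mem _ hLm wa)
    (order_of_chk (repT_evalW hL wa) (by norm_num) c9 c10) (evalW_mem _ hLm wb)
    (ne_one_of_isIdT (repT_pow (repT_evalW hL wb) 253) (by simpa using c11))
  have hXm' : evalW letters2 wx ∈ Cfsg.Spor.M23 := hXm
  have hYm' : evalW letters2 wy ∈ Cfsg.Spor.M23 := hYm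
  have hZm' : (evalW letters2 wx * evalW letters2 wy)⁻¹ ∈ Cfsg.Spor.M23 :=
    Cfsg.Spor.M23.inv_mem (Cfsg.Spor.M23.mul_mem hXm' hYm')
  refine ⟨⟨evalW letters2 wx, hXm'⟩, ⟨evalW letters2 wy, hYm'⟩,
    ⟨(evalW letters2 wx * evalW letters2 wy)⁻¹, hZm'⟩, ?_, ?_, ?_, ?_, ?_⟩
  · rw [Subgroup.orderOf_mk]
    exact hXo
  · rw [Subgroup.orderOf_mk]
    exact hYo
  · rw [Subgroup.orderOf_mk, orderOf_inv]
    exact hXYo
  · apply Subtype.ext
    exact mul_inv_cancel _
  · apply Subgroup.map_injective (Subgroup.subtype_injective Cfsg.Spor.M23)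
    rw [MonoidHom.map_closure, ← MonoidHom.range_eq_map, Subgroup.range_subtype, Set.image_pair]
    exact hgen

/-- The primes dividing the order of the stabiliser of the extra point. -/
theorem prime_cases_M23 {p : ℕ} (hp : p.Prime) (h : p ∣ 10200960) :
    p = 2 ∨ p = 3 ∨ p = 5 ∨ p = 7 ∨ p = 11 ∨ p = 23 := by
  have h1 : (10200960 : ℕ) = 2 ^ 7 * 3 ^ 2 * 5 * 7 * 11 * 23 := by norm_num
  rw [h1] at h
  rcases (Nat.Prime.dvd_mul hp).mp h with h | h
  · rcases (Nat.Prime.dvd_mul hp).mp h with h | h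
    · rcases (Nat.Prime.dvd_mul hp).mp h with h | h
      · rcases (Nat.Prime.dvd_mul hp).mp h with h | h
        · rcases (Nat.Prime.dvd_mul hp).mp h with h | h
          · left
            exact (Nat.prime_dvd_prime_iff_eq hp (by norm_num)).mp (hp.dvd_of_dvd_pow h)
          · right; left
            exact (Nat.prime_dvd_prime_iff_eq hp (by norm_num)).mp (hp.dvd_of_dvd_pow h)
        · right; right; left
          exact (Nat.prime_dvd_prime_iff_eq hp (by norm_num)).mp h
      · right; right; right; left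
        exact (Nat.prime_dvd_prime_iff_eq hp (by norm_num)).mp h
    · right; right; right; right; left
      exact (Nat.prime_dvd_prime_iff_eq hp (by norm_num)).mp h
  · right; right; right; right; right
    exact (Nat.prime_dvd_prime_iff_eq hp (by norm_num)).mp h


set_option maxRecDepth 100000 in
theorem gen_2_5_11 : ∃ x y z : ↥Cfsg.Spor.M23, orderOf x = 2 ∧ orderOf y = 5 ∧ orderOf z = 11 ∧
    x * y * z = 1 ∧ Subgroup.closure {x, y} = ⊤ :=
  gen_triple 2 5 11 (by norm_num) (by norm_num) (by norm_num)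
    [6, 2, 2, 3, 4, 11, 17, 11, 9, 8, 7] [4, 12, 9, 14, 6, 3, 18, 5, 8, 7]
    [0, 1, 0, 1, 1] [0] (by decide +kernel)

set_option maxRecDepth 100000 in
theorem gen_2_5_23 : ∃ x y z : ↥Cfsg.Spor.M23, orderOf x = 2 ∧ orderOf y = 5 ∧ orderOf z = 23 ∧
    x * y * z = 1 ∧ Subgroup.closure {x, y} = ⊤ :=
  gen_triple 2 5 23 (by norm_num) (by norm_num) (by norm_num)
    [6, 12, 14, 14, 3, 4, 10, 6, 9, 8, 7] [6, 2, 0, 15, 2, 5, 4, 10, 6]
    [0, 1] [0] (by decide +kernel)

set_option maxRecDepth 100000 in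
theorem gen_2_7_7 : ∃ x y z : ↥Cfsg.Spor.M23, orderOf x = 2 ∧ orderOf y = 7 ∧ orderOf z = 7 ∧
    x * y * z = 1 ∧ Subgroup.closure {x, y} = ⊤ :=
  gen_triple 2 7 7 (by norm_num) (by norm_num) (by norm_num)
    [5, 4, 8, 5, 11, 9, 8, 7] [15, 12, 14, 9, 3, 11, 17, 11, 8, 7]
    [0, 1, 1] [0] (by decide +kernel)

set_option maxRecDepth 100000 in
theorem gen_2_7_11 : ∃ x y z : ↥Cfsg.Spor.M23, orderOf x = 2 ∧ orderOf y = 7 ∧ orderOf z = 11 ∧
    x * y * z = 1 ∧ Subgroup.closure {x, y} = ⊤ :=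
  gen_triple 2 7 11 (by norm_num) (by norm_num) (by norm_num)
    [3, 12, 9, 2, 18, 15, 8, 5, 11, 9, 8] [2, 0, 3, 2, 3, 4, 11, 6, 9, 8]
    [0, 1, 1, 1] [0] (by decide +kernel)

set_option maxRecDepth 100000 in
theorem gen_2_7_23 : ∃ x y z : ↥Cfsg.Spor.M23, orderOf x = 2 ∧ orderOf y = 7 ∧ orderOf z = 23 ∧
    x * y * z = 1 ∧ Subgroup.closure {x, y} = ⊤ :=
  gen_triple 2 7 23 (by norm_num) (by norm_num) (by norm_num)
    [9, 14, 0, 14, 14, 4, 3, 9, 5, 23, 10, 9] [6, 2, 2, 18, 15, 23, 6, 11, 10, 9, 7]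
    [0, 1] [0] (by decide +kernel)

set_option maxRecDepth 100000 in
theorem gen_2_11_11 : ∃ x y z : ↥Cfsg.Spor.M23, orderOf x = 2 ∧ orderOf y = 11 ∧ orderOf z = 11 ∧
    x * y * z = 1 ∧ Subgroup.closure {x, y} = ⊤ :=
  gen_triple 2 11 11 (by norm_num) (by norm_num) (by norm_num)
    [8, 6, 11, 10, 9, 8] [2, 0, 18, 2, 3, 3, 9, 5, 10]
    [0, 1, 1, 1] [0] (by decide +kernel)

set_option maxRecDepth 100000 in
theorem gen_2_11_23 : ∃ x y z : ↥Cfsg.Spor.M23, orderOf x = 2 ∧ orderOf y = 11 ∧ orderOf z = 23 ∧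
    x * y * z = 1 ∧ Subgroup.closure {x, y} = ⊤ :=
  gen_triple 2 11 23 (by norm_num) (by norm_num) (by norm_num)
    [10, 2, 10, 4, 10, 6, 11, 10, 9] [3, 2, 0, 8, 2, 8, 3, 18, 5, 23, 9, 8, 7]
    [0, 1] [0] (by decide +kernel)

set_option maxRecDepth 100000 in
theorem gen_2_23_23 : ∃ x y z : ↥Cfsg.Spor.M23, orderOf x = 2 ∧ orderOf y = 23 ∧ orderOf z = 23 ∧
    x * y * z = 1 ∧ Subgroup.closure {x, y} = ⊤ :=
  gen_triple 2 23 23 (by norm_num) (by norm_num) (by norm_num)
    [14, 12, 17, 2, 16, 3, 11, 17, 11] [6, 2, 0, 2, 4, 2, 6, 3, 9, 6, 10, 9]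
    [1] [0] (by decide +kernel)

set_option maxRecDepth 100000 in
theorem gen_3_3_11 : ∃ x y z : ↥Cfsg.Spor.M23, orderOf x = 3 ∧ orderOf y = 3 ∧ orderOf z = 11 ∧
    x * y * z = 1 ∧ Subgroup.closure {x, y} = ⊤ :=
  gen_triple 3 3 11 (by norm_num) (by norm_num) (by norm_num)
    [14, 12, 6, 2, 2, 15, 18, 5, 8] [14, 0, 2, 2, 3, 10, 6, 9, 7]
    [0, 0, 1] [0] (by decide +kernel)

set_option maxRecDepth 100000 in
theorem gen_3_3_23 : ∃ x y z : ↥Cfsg.Spor.M23, orderOf x = 3 ∧ orderOf y = 3 ∧ orderOf z = 23 ∧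
    x * y * z = 1 ∧ Subgroup.closure {x, y} = ⊤ :=
  gen_triple 3 3 23 (by norm_num) (by norm_num) (by norm_num)
    [14, 3, 4, 23, 6, 23, 9] [12, 14, 14, 15, 11, 6, 6]
    [0, 1] [0] (by decide +kernel)

set_option maxRecDepth 100000 in
theorem gen_3_5_5 : ∃ x y z : ↥Cfsg.Spor.M23, orderOf x = 3 ∧ orderOf y = 5 ∧ orderOf z = 5 ∧
    x * y * z = 1 ∧ Subgroup.closure {x, y} = ⊤ :=
  gen_triple 3 5 5 (by norm_num) (by norm_num) (by norm_num)
    [9, 2, 18, 15, 11, 6, 6, 10, 9, 7] [0, 4, 2, 17, 4, 8, 6, 23, 10, 9, 8, 7]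
    [0, 0, 1, 1] [0] (by decide +kernel)

set_option maxRecDepth 100000 in
theorem gen_3_5_7 : ∃ x y z : ↥Cfsg.Spor.M23, orderOf x = 3 ∧ orderOf y = 5 ∧ orderOf z = 7 ∧
    x * y * z = 1 ∧ Subgroup.closure {x, y} = ⊤ :=
  gen_triple 3 5 7 (by norm_num) (by norm_num) (by norm_num)
    [7, 12, 14, 14, 8, 3, 9, 6, 11, 9] [0, 0, 0, 2, 16, 18, 5, 10]
    [0, 0, 1, 0, 1, 1] [0] (by decide +kernel)

set_option maxRecDepth 100000 in
theorem gen_3_5_11 : ∃ x y z : ↥Cfsg.Spor.M23, orderOf x = 3 ∧ orderOf y = 5 ∧ orderOf z = 11 ∧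
    x * y * z = 1 ∧ Subgroup.closure {x, y} = ⊤ :=
  gen_triple 3 5 11 (by norm_num) (by norm_num) (by norm_num)
    [14, 3, 4, 23, 6, 23, 9] [0, 18, 3, 2, 8, 3, 10, 6, 10, 8]
    [0, 0, 1, 0, 1] [0] (by decide +kernel)

set_option maxRecDepth 100000 in
theorem gen_3_5_23 : ∃ x y z : ↥Cfsg.Spor.M23, orderOf x = 3 ∧ orderOf y = 5 ∧ orderOf z = 23 ∧
    x * y * z = 1 ∧ Subgroup.closure {x, y} = ⊤ :=
  gen_triple 3 5 23 (by norm_num) (by norm_num) (by norm_num)
    [0, 0, 2, 11, 3, 6, 11, 7] [3, 12, 16, 14, 7, 16, 11, 5, 23]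
    [0, 1] [0] (by decide +kernel)

set_option maxRecDepth 100000 in
theorem gen_3_7_7 : ∃ x y z : ↥Cfsg.Spor.M23, orderOf x = 3 ∧ orderOf y = 7 ∧ orderOf z = 7 ∧
    x * y * z = 1 ∧ Subgroup.closure {x, y} = ⊤ :=
  gen_triple 3 7 7 (by norm_num) (by norm_num) (by norm_num)
    [15, 2, 10, 4, 10, 6, 8] [15, 12, 6, 2, 2, 10, 4, 9, 5, 8]
    [0, 0, 1, 0, 1, 0, 1, 1] [0] (by decide +kernel)

set_option maxRecDepth 100000 in
theorem gen_3_7_11 : ∃ x y z : ↥Cfsg.Spor.M23, orderOf x = 3 ∧ orderOf y = 7 ∧ orderOf z = 11 ∧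
    x * y * z = 1 ∧ Subgroup.closure {x, y} = ⊤ :=
  gen_triple 3 7 11 (by norm_num) (by norm_num) (by norm_num)
    [9, 14, 0, 6, 14, 9, 3, 7, 5, 10, 9, 8, 7] [4, 12, 14, 14, 10, 4, 11, 6, 10, 9]
    [0, 1, 1, 1] [0] (by decide +kernel)

set_option maxRecDepth 100000 in
theorem gen_3_7_23 : ∃ x y z : ↥Cfsg.Spor.M23, orderOf x = 3 ∧ orderOf y = 7 ∧ orderOf z = 23 ∧
    x * y * z = 1 ∧ Subgroup.closure {x, y} = ⊤ :=
  gen_triple 3 7 23 (by norm_num) (by norm_num) (by norm_num)
    [14, 12, 6, 2, 2, 15, 18, 5, 8] [7, 12, 14, 14, 3, 9, 5, 10, 9]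
    [0, 1] [0] (by decide +kernel)

set_option maxRecDepth 100000 in
theorem gen_3_11_11 : ∃ x y z : ↥Cfsg.Spor.M23, orderOf x = 3 ∧ orderOf y = 11 ∧ orderOf z = 11 ∧
    x * y * z = 1 ∧ Subgroup.closure {x, y} = ⊤ :=
  gen_triple 3 11 11 (by norm_num) (by norm_num) (by norm_num)
    [17, 12, 9, 2, 16, 3, 6, 23, 9, 8, 7] [8, 14, 4, 3, 11, 6, 6, 11, 10, 8, 7]
    [0, 1, 1, 1] [0] (by decide +kernel)

set_option maxRecDepth 100000 in
theorem gen_3_11_23 : ∃ x y z : ↥Cfsg.Spor.M23, orderOf x = 3 ∧ orderOf y = 11 ∧ orderOf z = 23 ∧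
    x * y * z = 1 ∧ Subgroup.closure {x, y} = ⊤ :=
  gen_triple 3 11 23 (by norm_num) (by norm_num) (by norm_num)
    [9, 3, 6, 5, 10, 9, 7] [17, 12, 17, 2, 15, 15, 11, 5, 8, 7]
    [0, 1] [0] (by decide +kernel)

set_option maxRecDepth 100000 in
theorem gen_3_23_23 : ∃ x y z : ↥Cfsg.Spor.M23, orderOf x = 3 ∧ orderOf y = 23 ∧ orderOf z = 23 ∧
    x * y * z = 1 ∧ Subgroup.closure {x, y} = ⊤ :=
  gen_triple 3 23 23 (by norm_num) (by norm_num) (by norm_num)
    [0, 14, 14, 4, 3, 8, 6, 10] [0, 18, 3, 2, 8, 3, 5, 10, 8]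
    [1] [0] (by decide +kernel)

set_option maxRecDepth 100000 in
theorem gen_5_5_5 : ∃ x y z : ↥Cfsg.Spor.M23, orderOf x = 5 ∧ orderOf y = 5 ∧ orderOf z = 5 ∧
    x * y * z = 1 ∧ Subgroup.closure {x, y} = ⊤ :=
  gen_triple 5 5 5 (by norm_num) (by norm_num) (by norm_num)
    [4, 12, 2, 2, 10, 4, 11, 6, 6, 23, 9] [2, 4, 2, 16, 9, 5, 9, 8, 7]
    [0, 0, 0, 0, 1, 0, 1] [0] (by decide +kernel)

set_option maxRecDepth 100000 in
theorem gen_5_5_7 : ∃ x y z : ↥Cfsg.Spor.M23, orderOf x = 5 ∧ orderOf y = 5 ∧ orderOf z = 7 ∧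
    x * y * z = 1 ∧ Subgroup.closure {x, y} = ⊤ :=
  gen_triple 5 5 7 (by norm_num) (by norm_num) (by norm_num)
    [15, 12, 3, 14, 7, 16, 6, 6, 9] [12, 14, 14, 6, 3, 10, 6, 11, 7]
    [0, 0, 0, 0, 1] [0] (by decide +kernel)

set_option maxRecDepth 100000 in
theorem gen_5_5_11 : ∃ x y z : ↥Cfsg.Spor.M23, orderOf x = 5 ∧ orderOf y = 5 ∧ orderOf z = 11 ∧
    x * y * z = 1 ∧ Subgroup.closure {x, y} = ⊤ :=
  gen_triple 5 5 11 (by norm_num) (by norm_num) (by norm_num)
    [9, 14, 0, 14, 7, 16, 6, 6, 10, 8, 7] [17, 12, 18, 2, 15, 17, 23, 10]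
    [0, 1, 0, 1, 1, 1] [0] (by decide +kernel)

set_option maxRecDepth 100000 in
theorem gen_5_5_23 : ∃ x y z : ↥Cfsg.Spor.M23, orderOf x = 5 ∧ orderOf y = 5 ∧ orderOf z = 23 ∧
    x * y * z = 1 ∧ Subgroup.closure {x, y} = ⊤ :=
  gen_triple 5 5 23 (by norm_num) (by norm_num) (by norm_num)
    [9, 2, 0, 8, 14, 10, 4, 10, 9, 8] [0, 14, 11, 3, 11, 5, 23, 7]
    [0, 1] [0] (by decide +kernel)

set_option maxRecDepth 100000 in
theorem gen_5_7_7 : ∃ x y z : ↥Cfsg.Spor.M23, orderOf x = 5 ∧ orderOf y = 7 ∧ orderOf z = 7 ∧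
    x * y * z = 1 ∧ Subgroup.closure {x, y} = ⊤ :=
  gen_triple 5 7 7 (by norm_num) (by norm_num) (by norm_num)
    [2, 12, 6, 14, 17, 4, 8, 5, 10, 8, 7] [16, 0, 0, 18, 2, 6, 3, 7, 5, 23, 7]
    [0, 0, 0, 1, 0, 1] [0] (by decide +kernel)

set_option maxRecDepth 100000 in
theorem gen_5_7_11 : ∃ x y z : ↥Cfsg.Spor.M23, orderOf x = 5 ∧ orderOf y = 7 ∧ orderOf z = 11 ∧
    x * y * z = 1 ∧ Subgroup.closure {x, y} = ⊤ :=
  gen_triple 5 7 11 (by norm_num) (by norm_num) (by norm_num)
    [6, 2, 0, 14, 11, 3, 17, 23, 8, 7] [3, 2, 15, 23, 10, 8]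
    [0, 1, 1, 1] [0] (by decide +kernel)

set_option maxRecDepth 100000 in
theorem gen_5_7_23 : ∃ x y z : ↥Cfsg.Spor.M23, orderOf x = 5 ∧ orderOf y = 7 ∧ orderOf z = 23 ∧
    x * y * z = 1 ∧ Subgroup.closure {x, y} = ⊤ :=
  gen_triple 5 7 23 (by norm_num) (by norm_num) (by norm_num)
    [18, 3, 2, 7, 16, 6, 23, 10, 7] [3, 2, 0, 6, 2, 2, 9, 4, 11, 6, 6, 11, 8, 7]
    [0, 1] [0] (by decide +kernel)

set_option maxRecDepth 100000 in
theorem gen_5_11_11 : ∃ x y z : ↥Cfsg.Spor.M23, orderOf x = 5 ∧ orderOf y = 11 ∧ orderOf z = 11 ∧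
    x * y * z = 1 ∧ Subgroup.closure {x, y} = ⊤ :=
  gen_triple 5 11 11 (by norm_num) (by norm_num) (by norm_num)
    [6, 2, 0, 14, 11, 3, 17, 23, 8, 7] [2, 17, 4, 8, 6, 11]
    [0, 0, 1, 1] [0] (by decide +kernel)

set_option maxRecDepth 100000 in
theorem gen_5_11_23 : ∃ x y z : ↥Cfsg.Spor.M23, orderOf x = 5 ∧ orderOf y = 11 ∧ orderOf z = 23 ∧
    x * y * z = 1 ∧ Subgroup.closure {x, y} = ⊤ :=
  gen_triple 5 11 23 (by norm_num) (by norm_num) (by norm_num)
    [9, 2, 0, 6, 2, 5, 4, 11, 17, 23, 10, 9, 8, 7] [3, 12, 3, 14, 15, 11, 5, 23, 8, 7]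
    [0, 1] [0] (by decide +kernel)

set_option maxRecDepth 100000 in
theorem gen_5_23_23 : ∃ x y z : ↥Cfsg.Spor.M23, orderOf x = 5 ∧ orderOf y = 23 ∧ orderOf z = 23 ∧
    x * y * z = 1 ∧ Subgroup.closure {x, y} = ⊤ :=
  gen_triple 5 23 23 (by norm_num) (by norm_num) (by norm_num)
    [8, 2, 17, 4, 11, 6, 11, 10, 8] [9, 2, 0, 15, 2, 15, 15, 10, 6, 23, 10, 9, 8, 7]
    [1] [0] (by decide +kernel)

set_option maxRecDepth 100000 in
theorem gen_7_7_7 : ∃ x y z : ↥Cfsg.Spor.M23, orderOf x = 7 ∧ orderOf y = 7 ∧ orderOf z = 7 ∧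
    x * y * z = 1 ∧ Subgroup.closure {x, y} = ⊤ :=
  gen_triple 7 7 7 (by norm_num) (by norm_num) (by norm_num)
    [7, 12, 15, 15, 7, 5, 7] [14, 12, 2, 2, 17, 4, 6, 6, 10, 9, 8, 7]
    [0, 0, 1, 0, 1] [0] (by decide +kernel)

set_option maxRecDepth 100000 in
theorem gen_7_7_11 : ∃ x y z : ↥Cfsg.Spor.M23, orderOf x = 7 ∧ orderOf y = 7 ∧ orderOf z = 11 ∧
    x * y * z = 1 ∧ Subgroup.closure {x, y} = ⊤ :=
  gen_triple 7 7 11 (by norm_num) (by norm_num) (by norm_num)
    [2, 18, 15, 11, 5, 11, 9, 8, 7] [6, 2, 0, 18, 3, 2, 10, 4, 7, 5, 10, 9, 8, 7]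
    [0, 0, 1] [0] (by decide +kernel)

set_option maxRecDepth 100000 in
theorem gen_7_7_23 : ∃ x y z : ↥Cfsg.Spor.M23, orderOf x = 7 ∧ orderOf y = 7 ∧ orderOf z = 23 ∧
    x * y * z = 1 ∧ Subgroup.closure {x, y} = ⊤ :=
  gen_triple 7 7 23 (by norm_num) (by norm_num) (by norm_num)
    [6, 14, 4, 6, 6, 23, 10, 9, 8, 7] [16, 0, 0, 6, 2, 16, 3, 11, 6, 6, 23, 10]
    [0, 1] [0] (by decide +kernel)

set_option maxRecDepth 100000 in
theorem gen_7_11_11 : ∃ x y z : ↥Cfsg.Spor.M23, orderOf x = 7 ∧ orderOf y = 11 ∧ orderOf z = 11 ∧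
    x * y * z = 1 ∧ Subgroup.closure {x, y} = ⊤ :=
  gen_triple 7 11 11 (by norm_num) (by norm_num) (by norm_num)
    [16, 0, 0, 14, 17, 4, 7, 5, 23, 10] [2, 12, 6, 2, 2, 6, 3, 23, 6, 23, 10, 9]
    [0, 1, 1] [0] (by decide +kernel)

set_option maxRecDepth 100000 in
theorem gen_7_11_23 : ∃ x y z : ↥Cfsg.Spor.M23, orderOf x = 7 ∧ orderOf y = 11 ∧ orderOf z = 23 ∧
    x * y * z = 1 ∧ Subgroup.closure {x, y} = ⊤ :=
  gen_triple 7 11 23 (by norm_num) (by norm_num) (by norm_num)
    [15, 12, 4, 2, 15, 6, 6, 11] [2, 0, 6, 2, 2, 17, 4, 23, 6, 11, 9]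
    [0, 1] [0] (by decide +kernel)

set_option maxRecDepth 100000 in
theorem gen_7_23_23 : ∃ x y z : ↥Cfsg.Spor.M23, orderOf x = 7 ∧ orderOf y = 23 ∧ orderOf z = 23 ∧
    x * y * z = 1 ∧ Subgroup.closure {x, y} = ⊤ :=
  gen_triple 7 23 23 (by norm_num) (by norm_num) (by norm_num)
    [16, 14, 10, 4, 11, 5, 10, 9, 8, 7] [14, 12, 3, 14, 17, 11, 9]
    [1] [0] (by decide +kernel)

set_option maxRecDepth 100000 in
theorem gen_11_11_11 : ∃ x y z : ↥Cfsg.Spor.M23, orderOf x = 11 ∧ orderOf y = 11 ∧ orderOf z = 11 ∧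
    x * y * z = 1 ∧ Subgroup.closure {x, y} = ⊤ :=
  gen_triple 11 11 11 (by norm_num) (by norm_num) (by norm_num)
    [9, 2, 0, 10, 2, 10, 4, 6, 5, 11, 10, 9, 8, 7] [14, 3, 23, 6, 23, 10, 8, 7]
    [0, 1, 0, 1, 1] [0, 0, 1] (by decide +kernel)

set_option maxRecDepth 100000 in
theorem gen_11_11_23 : ∃ x y z : ↥Cfsg.Spor.M23, orderOf x = 11 ∧ orderOf y = 11 ∧ orderOf z = 23 ∧
    x * y * z = 1 ∧ Subgroup.closure {x, y} = ⊤ :=
  gen_triple 11 11 23 (by norm_num) (by norm_num) (by norm_num)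
    [2, 0, 10, 2, 5, 4, 18, 23, 9, 8, 7] [9, 2, 0, 3, 14, 15, 15, 11, 9]
    [0, 1] [0, 0, 1] (by decide +kernel)

set_option maxRecDepth 100000 in
theorem gen_11_23_23 : ∃ x y z : ↥Cfsg.Spor.M23, orderOf x = 11 ∧ orderOf y = 23 ∧ orderOf z = 23 ∧
    x * y * z = 1 ∧ Subgroup.closure {x, y} = ⊤ :=
  gen_triple 11 23 23 (by norm_num) (by norm_num) (by norm_num)
    [0, 6, 2, 2, 9, 3, 11, 6, 6, 11, 10, 9] [17, 2, 0, 4, 2, 8, 3, 6, 11, 10]
    [1] [0, 0, 0, 1] (by decide +kernel)

set_option maxRecDepth 100000 in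
theorem gen_23_23_23 : ∃ x y z : ↥Cfsg.Spor.M23, orderOf x = 23 ∧ orderOf y = 23 ∧ orderOf z = 23 ∧
    x * y * z = 1 ∧ Subgroup.closure {x, y} = ⊤ :=
  gen_triple 23 23 23 (by norm_num) (by norm_num) (by norm_num)
    [12, 18, 2, 5, 4, 18, 5, 11, 10, 9, 8] [4, 12, 18, 3, 2, 9, 4, 11, 6, 6, 8]
    [0] [0, 0, 1] (by decide +kernel)

/-- Every triple that is not excluded is realised by a generating pair. -/
theorem M23_pos (p q r : ℕ)
    (hp : p = 2 ∨ p = 3 ∨ p = 5 ∨ p = 7 ∨ p = 11 ∨ p = 23)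
    (hq : q = 2 ∨ q = 3 ∨ q = 5 ∨ q = 7 ∨ q = 11 ∨ q = 23)
    (hr : r = 2 ∨ r = 3 ∨ r = 5 ∨ r = 7 ∨ r = 11 ∨ r = 23)
    (hpq : p ≤ q) (hqr : q ≤ r) (hp2 : ¬ (p = 2 ∧ q = 2))
    (hbad : ¬ ((p = 2 ∧ q = 3) ∨ (p = 2 ∧ q = 5 ∧ r = 5) ∨ (p = 2 ∧ q = 5 ∧ r = 7) ∨
      (p = 3 ∧ q = 3 ∧ r ≤ 7))) :
    ∃ x y z : ↥Cfsg.Spor.M23, orderOf x = p ∧ orderOf y = q ∧ orderOf z = r ∧ x * y * z = 1 ∧
      Subgroup.closure {x, y} = ⊤ := by
  rcases hp with rfl | rfl | rfl | rfl | rfl | rfl
  · rcases hq with rfl | rfl | rfl | rfl | rfl | rfl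
    · rcases hr with rfl | rfl | rfl | rfl | rfl | rfl
      · exact absurd ⟨rfl, rfl⟩ hp2
      · exact absurd ⟨rfl, rfl⟩ hp2
      · exact absurd ⟨rfl, rfl⟩ hp2
      · exact absurd ⟨rfl, rfl⟩ hp2
      · exact absurd ⟨rfl, rfl⟩ hp2
      · exact absurd ⟨rfl, rfl⟩ hp2
    · rcases hr with rfl | rfl | rfl | rfl | rfl | rfl
      · exact absurd hqr (by decide)
      · exact absurd (by decide) hbad
      · exact absurd (by decide) hbad
      · exact absurd (by decide) hbad
      · exact absurd (by decide) hbad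
      · exact absurd (by decide) hbad
    · rcases hr with rfl | rfl | rfl | rfl | rfl | rfl
      · exact absurd hqr (by decide)
      · exact absurd hqr (by decide)
      · exact absurd (by decide) hbad
      · exact absurd (by decide) hbad
      · exact gen_2_5_11
      · exact gen_2_5_23
    · rcases hr with rfl | rfl | rfl | rfl | rfl | rfl
      · exact absurd hqr (by decide)
      · exact absurd hqr (by decide)
      · exact absurd hqr (by decide)
      · exact gen_2_7_7
      · exact gen_2_7_11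
      · exact gen_2_7_23
    · rcases hr with rfl | rfl | rfl | rfl | rfl | rfl
      · exact absurd hqr (by decide)
      · exact absurd hqr (by decide)
      · exact absurd hqr (by decide)
      · exact absurd hqr (by decide)
      · exact gen_2_11_11
      · exact gen_2_11_23
    · rcases hr with rfl | rfl | rfl | rfl | rfl | rfl
      · exact absurd hqr (by decide)
      · exact absurd hqr (by decide)
      · exact absurd hqr (by decide)
      · exact absurd hqr (by decide)
      · exact absurd hqr (by decide)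
      · exact gen_2_23_23
  · rcases hq with rfl | rfl | rfl | rfl | rfl | rfl
    · rcases hr with rfl | rfl | rfl | rfl | rfl | rfl
      · exact absurd hpq (by decide)
      · exact absurd hpq (by decide)
      · exact absurd hpq (by decide)
      · exact absurd hpq (by decide)
      · exact absurd hpq (by decide)
      · exact absurd hpq (by decide)
    · rcases hr with rfl | rfl | rfl | rfl | rfl | rfl
      · exact absurd hqr (by decide)
      · exact absurd (by decide) hbad
      · exact absurd (by decide) hbad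
      · exact absurd (by decide) hbad
      · exact gen_3_3_11
      · exact gen_3_3_23
    · rcases hr with rfl | rfl | rfl | rfl | rfl | rfl
      · exact absurd hqr (by decide)
      · exact absurd hqr (by decide)
      · exact gen_3_5_5
      · exact gen_3_5_7
      · exact gen_3_5_11
      · exact gen_3_5_23
    · rcases hr with rfl | rfl | rfl | rfl | rfl | rfl
      · exact absurd hqr (by decide)
      · exact absurd hqr (by decide)
      · exact absurd hqr (by decide)
      · exact gen_3_7_7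
      · exact gen_3_7_11
      · exact gen_3_7_23
    · rcases hr with rfl | rfl | rfl | rfl | rfl | rfl
      · exact absurd hqr (by decide)
      · exact absurd hqr (by decide)
      · exact absurd hqr (by decide)
      · exact absurd hqr (by decide)
      · exact gen_3_11_11
      · exact gen_3_11_23
    · rcases hr with rfl | rfl | rfl | rfl | rfl | rfl
      · exact absurd hqr (by decide)
      · exact absurd hqr (by decide)
      · exact absurd hqr (by decide)
      · exact absurd hqr (by decide)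
      · exact absurd hqr (by decide)
      · exact gen_3_23_23
  · rcases hq with rfl | rfl | rfl | rfl | rfl | rfl
    · rcases hr with rfl | rfl | rfl | rfl | rfl | rfl
      · exact absurd hpq (by decide)
      · exact absurd hpq (by decide)
      · exact absurd hpq (by decide)
      · exact absurd hpq (by decide)
      · exact absurd hpq (by decide)
      · exact absurd hpq (by decide)
    · rcases hr with rfl | rfl | rfl | rfl | rfl | rfl
      · exact absurd hpq (by decide)
      · exact absurd hpq (by decide)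
      · exact absurd hpq (by decide)
      · exact absurd hpq (by decide)
      · exact absurd hpq (by decide)
      · exact absurd hpq (by decide)
    · rcases hr with rfl | rfl | rfl | rfl | rfl | rfl
      · exact absurd hqr (by decide)
      · exact absurd hqr (by decide)
      · exact gen_5_5_5
      · exact gen_5_5_7
      · exact gen_5_5_11
      · exact gen_5_5_23
    · rcases hr with rfl | rfl | rfl | rfl | rfl | rfl
      · exact absurd hqr (by decide)
      · exact absurd hqr (by decide)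
      · exact absurd hqr (by decide)
      · exact gen_5_7_7
      · exact gen_5_7_11
      · exact gen_5_7_23
    · rcases hr with rfl | rfl | rfl | rfl | rfl | rfl
      · exact absurd hqr (by decide)
      · exact absurd hqr (by decide)
      · exact absurd hqr (by decide)
      · exact absurd hqr (by decide)
      · exact gen_5_11_11
      · exact gen_5_11_23
    · rcases hr with rfl | rfl | rfl | rfl | rfl | rfl
      · exact absurd hqr (by decide)
      · exact absurd hqr (by decide)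
      · exact absurd hqr (by decide)
      · exact absurd hqr (by decide)
      · exact absurd hqr (by decide)
      · exact gen_5_23_23
  · rcases hq with rfl | rfl | rfl | rfl | rfl | rfl
    · rcases hr with rfl | rfl | rfl | rfl | rfl | rfl
      · exact absurd hpq (by decide)
      · exact absurd hpq (by decide)
      · exact absurd hpq (by decide)
      · exact absurd hpq (by decide)
      · exact absurd hpq (by decide)
      · exact absurd hpq (by decide)
    · rcases hr with rfl | rfl | rfl | rfl | rfl | rfl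
      · exact absurd hpq (by decide)
      · exact absurd hpq (by decide)
      · exact absurd hpq (by decide)
      · exact absurd hpq (by decide)
      · exact absurd hpq (by decide)
      · exact absurd hpq (by decide)
    · rcases hr with rfl | rfl | rfl | rfl | rfl | rfl
      · exact absurd hpq (by decide)
      · exact absurd hpq (by decide)
      · exact absurd hpq (by decide)
      · exact absurd hpq (by decide)
      · exact absurd hpq (by decide)
      · exact absurd hpq (by decide)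
    · rcases hr with rfl | rfl | rfl | rfl | rfl | rfl
      · exact absurd hqr (by decide)
      · exact absurd hqr (by decide)
      · exact absurd hqr (by decide)
      · exact gen_7_7_7
      · exact gen_7_7_11
      · exact gen_7_7_23
    · rcases hr with rfl | rfl | rfl | rfl | rfl | rfl
      · exact absurd hqr (by decide)
      · exact absurd hqr (by decide)
      · exact absurd hqr (by decide)
      · exact absurd hqr (by decide)
      · exact gen_7_11_11
      · exact gen_7_11_23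
    · rcases hr with rfl | rfl | rfl | rfl | rfl | rfl
      · exact absurd hqr (by decide)
      · exact absurd hqr (by decide)
      · exact absurd hqr (by decide)
      · exact absurd hqr (by decide)
      · exact absurd hqr (by decide)
      · exact gen_7_23_23
  · rcases hq with rfl | rfl | rfl | rfl | rfl | rfl
    · rcases hr with rfl | rfl | rfl | rfl | rfl | rfl
      · exact absurd hpq (by decide)
      · exact absurd hpq (by decide)
      · exact absurd hpq (by decide)
      · exact absurd hpq (by decide)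
      · exact absurd hpq (by decide)
      · exact absurd hpq (by decide)
    · rcases hr with rfl | rfl | rfl | rfl | rfl | rfl
      · exact absurd hpq (by decide)
      · exact absurd hpq (by decide)
      · exact absurd hpq (by decide)
      · exact absurd hpq (by decide)
      · exact absurd hpq (by decide)
      · exact absurd hpq (by decide)
    · rcases hr with rfl | rfl | rfl | rfl | rfl | rfl
      · exact absurd hpq (by decide)
      · exact absurd hpq (by decide)
      · exact absurd hpq (by decide)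
      · exact absurd hpq (by decide)
      · exact absurd hpq (by decide)
      · exact absurd hpq (by decide)
    · rcases hr with rfl | rfl | rfl | rfl | rfl | rfl
      · exact absurd hpq (by decide)
      · exact absurd hpq (by decide)
      · exact absurd hpq (by decide)
      · exact absurd hpq (by decide)
      · exact absurd hpq (by decide)
      · exact absurd hpq (by decide)
    · rcases hr with rfl | rfl | rfl | rfl | rfl | rfl
      · exact absurd hqr (by decide)
      · exact absurd hqr (by decide)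
      · exact absurd hqr (by decide)
      · exact absurd hqr (by decide)
      · exact gen_11_11_11
      · exact gen_11_11_23
    · rcases hr with rfl | rfl | rfl | rfl | rfl | rfl
      · exact absurd hqr (by decide)
      · exact absurd hqr (by decide)
      · exact absurd hqr (by decide)
      · exact absurd hqr (by decide)
      · exact absurd hqr (by decide)
      · exact gen_11_23_23
  · rcases hq with rfl | rfl | rfl | rfl | rfl | rfl
    · rcases hr with rfl | rfl | rfl | rfl | rfl | rfl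
      · exact absurd hpq (by decide)
      · exact absurd hpq (by decide)
      · exact absurd hpq (by decide)
      · exact absurd hpq (by decide)
      · exact absurd hpq (by decide)
      · exact absurd hpq (by decide)
    · rcases hr with rfl | rfl | rfl | rfl | rfl | rfl
      · exact absurd hpq (by decide)
      · exact absurd hpq (by decide)
      · exact absurd hpq (by decide)
      · exact absurd hpq (by decide)
      · exact absurd hpq (by decide)
      · exact absurd hpq (by decide)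
    · rcases hr with rfl | rfl | rfl | rfl | rfl | rfl
      · exact absurd hpq (by decide)
      · exact absurd hpq (by decide)
      · exact absurd hpq (by decide)
      · exact absurd hpq (by decide)
      · exact absurd hpq (by decide)
      · exact absurd hpq (by decide)
    · rcases hr with rfl | rfl | rfl | rfl | rfl | rfl
      · exact absurd hpq (by decide)
      · exact absurd hpq (by decide)
      · exact absurd hpq (by decide)
      · exact absurd hpq (by decide)
      · exact absurd hpq (by decide)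
      · exact absurd hpq (by decide)
    · rcases hr with rfl | rfl | rfl | rfl | rfl | rfl
      · exact absurd hpq (by decide)
      · exact absurd hpq (by decide)
      · exact absurd hpq (by decide)
      · exact absurd hpq (by decide)
      · exact absurd hpq (by decide)
      · exact absurd hpq (by decide)
    · rcases hr with rfl | rfl | rfl | rfl | rfl | rfl
      · exact absurd hqr (by decide)
      · exact absurd hqr (by decide)
      · exact absurd hqr (by decide)
      · exact absurd hqr (by decide)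
      · exact absurd hqr (by decide)
      · exact gen_23_23_23

end Cfsg.Agent.Lib.Helper26
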