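import Cfsg.Agent.Lib.Helper26.McInvElts
import Cfsg.Agent.Lib.Helper26.MCI.Defs

set_option autoImplicit false

/-! # The centraliser of an involution of the McLaughlin group acting on 35 points (S2132) -/

namespace Cfsg.Agent.Lib.Helper26.Co3

open Cfsg Cfsg.Spor Cfsg.Agent.Lib.Helper7 Cfsg.Agent.Lib.Helper92

theorem hacc3 : ∀ T ∈ [tH, tF, tN], Real Mc T := by
  intro T hT
  simp only [List.mem_cons, List.not_mem_nil, or_false] at hT
  rcases hT with rfl | rfl | rfl
  · exact ⟨H, mem_Mc.mpr H_fix, actsH⟩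
  · exact ⟨F, mem_Mc.mpr F_fix, actsF⟩
  · exact ⟨N, mem_Mc.mpr N_fix, actsN⟩

theorem real_all : ∀ T ∈ [tT, tC1, tC2, tC4] ++ uT ++ sT, Real Mc T := by
  intro T hT
  rw [← irun, List.mem_reverse] at hT
  exact real_run iprog hacc3 T (List.mem_of_mem_take hT)

theorem real_tT : Real Mc tT :=
  real_all tT (List.mem_append_left _ (List.mem_append_left _ (by simp)))

theorem real_tC1 : Real Mc tC1 :=
  real_all tC1 (List.mem_append_left _ (List.mem_append_left _ (by simp)))

theorem real_tC2 : Real Mc tC2 :=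
  real_all tC2 (List.mem_append_left _ (List.mem_append_left _ (by simp)))

theorem real_tC4 : Real Mc tC4 :=
  real_all tC4 (List.mem_append_left _ (List.mem_append_left _ (by simp)))

/-- The involution. -/
noncomputable def tM : ↥Spor.Co3 := Classical.choose real_tT

theorem tM_mem : tM ∈ Mc := (Classical.choose_spec real_tT).1

theorem actsT : Acts tM.1 tT := (Classical.choose_spec real_tT).2

/-- A lift of the 3-cycle. -/
noncomputable def c1M : ↥Spor.Co3 := Classical.choose real_tC1

theorem c1M_mem : c1M ∈ Mc := (Classical.choose_spec real_tC1).1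

theorem actsC1 : Acts c1M.1 tC1 := (Classical.choose_spec real_tC1).2

/-- A lift of the 7-cycle. -/
noncomputable def c2M : ↥Spor.Co3 := Classical.choose real_tC2

theorem c2M_mem : c2M ∈ Mc := (Classical.choose_spec real_tC2).1

theorem actsC2 : Acts c2M.1 tC2 := (Classical.choose_spec real_tC2).2

/-- A square root of the involution. -/
noncomputable def c4M : ↥Spor.Co3 := Classical.choose real_tC4

theorem c4M_mem : c4M ∈ Mc := (Classical.choose_spec real_tC4).1

theorem actsC4 : Acts c4M.1 tC4 := (Classical.choose_spec real_tC4).2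

theorem tM_sq : tM * tM = 1 :=
  co3_ext (acts_mul actsT actsT) (acts_one.congr (by decide +kernel : idT = compT tT tT))

theorem tM_ne : tM ≠ 1 := co3_ne actsT acts_one 2 (by norm_num) (by decide +kernel)

theorem c1_comm : c1M * tM = tM * c1M :=
  co3_ext (acts_mul actsC1 actsT)
    ((acts_mul actsT actsC1).congr (by decide +kernel : compT tT tC1 = compT tC1 tT))

theorem c2_comm : c2M * tM = tM * c2M :=
  co3_ext (acts_mul actsC2 actsT)
    ((acts_mul actsT actsC2).congr (by decide +kernel : compT tT tC2 = compT tC2 tT))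

theorem c4_sq : c4M * c4M = tM :=
  co3_ext (acts_mul actsC4 actsC4) (actsT.congr (by decide +kernel : tT = compT tC4 tC4))

/-! ### The 35 points -/

/-- The `i`-th point. -/
def rr (i : ℕ) : ℕ := rL.getD i 0

/-- The fixed vectors used for the profiles. -/
def fL : List ℕ := 0 :: rL

theorem rr_ok : (List.range 35).all (fun i => Nat.blt (rr i) 552 &&
    Nat.beq (ln tT (rr i)) (rr i) && Gq 0 (rr i) 0 (rr 0)) = true := by decide +kernel

theorem rep_ok : (List.range 552).all (fun y =>
    !(Nat.beq (ln tT y) y && Gq 0 y 0 (rr 0)) || rL.contains y) = true := by decide +kernel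

theorem rr_lt {i : ℕ} (hi : i < 35) : rr i < 552 := by
  have h1 := all_range rr_ok i hi
  simp only [Bool.and_eq_true] at h1
  exact Nat.blt_eq.mp h1.1.1

theorem rr_fix {i : ℕ} (hi : i < 35) : ln tT (rr i) = rr i := by
  have h1 := all_range rr_ok i hi
  simp only [Bool.and_eq_true] at h1
  exact Nat.eq_of_beq_eq_true h1.1.2

theorem rr_injN : ∀ a < 35, ∀ b < 35, rr a = rr b → a = b := by decide

theorem mem_rL {y : ℕ} (h : y ∈ rL) : ∃ j < 35, y = rr j := by
  obtain ⟨j, hj, e⟩ := List.mem_iff_getElem.mp h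
  refine ⟨j, hj, ?_⟩
  unfold rr
  rw [List.getD_eq_getElem _ _ hj, e]

theorem fL_lt : ∀ f ∈ fL, f < 552 := by decide

theorem fL_fix : ∀ f ∈ fL, ln tT f = f := by decide +kernel

theorem rep_img {g : ↥Spor.Co3} (h0 : g.1 (P 0) = P 0) (hc : g * tM = tM * g) {i : ℕ}
    (hi : i < 35) : ∃ j < 35, g.1 (P (rr i)) = P (rr j) := by
  have h1 := all_range rr_ok i hi
  simp only [Bool.and_eq_true] at h1
  obtain ⟨⟨-, -⟩, hG⟩ := h1
  have hlt : rr i < 552 := rr_lt hi
  have hfix : ln tT (rr i) = rr i := rr_fix hi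
  obtain ⟨y, hy, e⟩ := exists_pt g.2 hlt
  have h2 : tM.1 (P y) = P y := by
    have h3 : g.1 (tM.1 (P (rr i))) = tM.1 (g.1 (P (rr i))) :=
      congrArg (fun k : ↥Spor.Co3 => k.1 (P (rr i))) hc
    rw [(actsT _ hlt).2, hfix, e] at h3
    exact h3.symm
  have h4 : ln tT y = y := by
    have h5 := actsT y hy
    exact P_inj h5.1 hy (h5.2.symm.trans h2)
  have h5 : G 0 y = G 0 (rr i) := by
    rw [← dot_P (by norm_num) hy, ← dot_P (by norm_num) hlt, ← e]
    have h6 := co0_dotInt g.2.1 (P 0) (P (rr i))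
    rw [h0] at h6
    exact h6
  have h00 : G 0 (rr i) = G 0 (rr 0) :=
    (Gq_iff (by norm_num) hlt (by norm_num) (rr_lt (by norm_num))).mp hG
  have h6 : Gq 0 y 0 (rr 0) = true :=
    (Gq_iff (by norm_num) hy (by norm_num) (rr_lt (by norm_num))).mpr (h5.trans h00)
  have h7 := all_range rep_ok y hy
  have h8 : rL.contains y = true := by
    rcases (Bool.or_eq_true _ _).mp h7 with h | h
    · rw [h4, Nat.beq_refl, h6] at h
      exact absurd h (by decide)
    · exact h
  obtain ⟨j, hj, e2⟩ := mem_rL (List.contains_iff_mem.mp h8)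
  exact ⟨j, hj, by rw [e, e2]⟩

/-! ### The kernel -/

theorem cand_of {g : ↥Spor.Co3} (hF : ∀ f ∈ fL, g.1 (P f) = P f) {b tb y : ℕ} (hb : b < 552)
    (hy : y < 552) (e : g.1 (P b) = P y)
    (hcand : (List.range 552).all (fun y => !(fL.all (fun f => Gq y f b f)) ||
      Nat.beq y b || Nat.beq y tb) = true) : y = b ∨ y = tb := by
  have h1 : fL.all (fun f => Gq y f b f) = true := by
    rw [List.all_eq_true]
    intro f hf
    rw [Gq_iff hy (fL_lt f hf) hb (fL_lt f hf), ← dot_P hy (fL_lt f hf),
      ← dot_P hb (fL_lt f hf), ← e]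
    have h2 := co0_dotInt g.2.1 (P b) (P f)
    rw [hF f hf] at h2
    exact h2
  have h2 := all_range hcand y hy
  rw [h1] at h2
  simp only [Bool.not_true, Bool.false_or, Bool.or_eq_true] at h2
  rcases h2 with h | h
  · exact Or.inl (Nat.eq_of_beq_eq_true h)
  · exact Or.inr (Nat.eq_of_beq_eq_true h)

theorem fix_step {g : ↥Spor.Co3} (hF : ∀ f ∈ fL, g.1 (P f) = P f) {b tb w : ℕ} (hb : b < 552)
    (htb : tb < 552) (hw : w < 552) (hwfix : g.1 (P w) = P w)
    (hcand : (List.range 552).all (fun y => !(fL.all (fun f => Gq y f b f)) ||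
      Nat.beq y b || Nat.beq y tb) = true)
    (hne : Gq tb w b w = false) : g.1 (P b) = P b := by
  obtain ⟨y, hy, e⟩ := exists_pt g.2 hb
  rcases cand_of hF hb hy e hcand with h | h
  · rw [e, h]
  · exfalso
    rw [h] at e
    have h4 : Gq tb w b w = true := by
      rw [Gq_iff htb hw hb hw, ← dot_P htb hw, ← dot_P hb hw, ← e]
      have h5 := co0_dotInt g.2.1 (P b) (P w)
      rw [hwfix] at h5
      exact h5
    rw [hne] at h4
    exact Bool.false_ne_true h4

set_option maxRecDepth 100000 in
theorem ker_one {g : ↥Spor.Co3} (hF : ∀ f ∈ fL, g.1 (P f) = P f) (k2 : g.1 (P 2) = P 2) :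
    g = 1 := by
  have k3 : g.1 (P 3) = P 3 :=
    fix_step hF (b := 3) (tb := 457) (w := 2) (by norm_num) (by norm_num) (by norm_num) k2
      (by decide +kernel) (by decide +kernel)
  have k4 : g.1 (P 4) = P 4 :=
    fix_step hF (b := 4) (tb := 30) (w := 2) (by norm_num) (by norm_num) (by norm_num) k2
      (by decide +kernel) (by decide +kernel)
  have k6 : g.1 (P 6) = P 6 :=
    fix_step hF (b := 6) (tb := 533) (w := 4) (by norm_num) (by norm_num) (by norm_num) k4
      (by decide +kernel) (by decide +kernel)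
  have k9 : g.1 (P 9) = P 9 :=
    fix_step hF (b := 9) (tb := 437) (w := 2) (by norm_num) (by norm_num) (by norm_num) k2
      (by decide +kernel) (by decide +kernel)
  have k10 : g.1 (P 10) = P 10 :=
    fix_step hF (b := 10) (tb := 415) (w := 4) (by norm_num) (by norm_num) (by norm_num) k4
      (by decide +kernel) (by decide +kernel)
  have k11 : g.1 (P 11) = P 11 :=
    fix_step hF (b := 11) (tb := 550) (w := 3) (by norm_num) (by norm_num) (by norm_num) k3
      (by decide +kernel) (by decide +kernel)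
  have k12 : g.1 (P 12) = P 12 :=
    fix_step hF (b := 12) (tb := 500) (w := 4) (by norm_num) (by norm_num) (by norm_num) k4
      (by decide +kernel) (by decide +kernel)
  have k13 : g.1 (P 13) = P 13 :=
    fix_step hF (b := 13) (tb := 448) (w := 3) (by norm_num) (by norm_num) (by norm_num) k3
      (by decide +kernel) (by decide +kernel)
  have k14 : g.1 (P 14) = P 14 :=
    fix_step hF (b := 14) (tb := 527) (w := 2) (by norm_num) (by norm_num) (by norm_num) k2
      (by decide +kernel) (by decide +kernel)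
  have k16 : g.1 (P 16) = P 16 :=
    fix_step hF (b := 16) (tb := 466) (w := 4) (by norm_num) (by norm_num) (by norm_num) k4
      (by decide +kernel) (by decide +kernel)
  have k17 : g.1 (P 17) = P 17 :=
    fix_step hF (b := 17) (tb := 342) (w := 2) (by norm_num) (by norm_num) (by norm_num) k2
      (by decide +kernel) (by decide +kernel)
  have k18 : g.1 (P 18) = P 18 :=
    fix_step hF (b := 18) (tb := 489) (w := 2) (by norm_num) (by norm_num) (by norm_num) k2
      (by decide +kernel) (by decide +kernel)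
  have k19 : g.1 (P 19) = P 19 :=
    fix_step hF (b := 19) (tb := 382) (w := 2) (by norm_num) (by norm_num) (by norm_num) k2
      (by decide +kernel) (by decide +kernel)
  have k20 : g.1 (P 20) = P 20 :=
    fix_step hF (b := 20) (tb := 508) (w := 4) (by norm_num) (by norm_num) (by norm_num) k4
      (by decide +kernel) (by decide +kernel)
  have k21 : g.1 (P 21) = P 21 :=
    fix_step hF (b := 21) (tb := 312) (w := 3) (by norm_num) (by norm_num) (by norm_num) k3
      (by decide +kernel) (by decide +kernel)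
  have k22 : g.1 (P 22) = P 22 :=
    fix_step hF (b := 22) (tb := 400) (w := 4) (by norm_num) (by norm_num) (by norm_num) k4
      (by decide +kernel) (by decide +kernel)
  have k24 : g.1 (P 24) = P 24 :=
    fix_step hF (b := 24) (tb := 541) (w := 2) (by norm_num) (by norm_num) (by norm_num) k2
      (by decide +kernel) (by decide +kernel)
  have k7 : g.1 (P 7) = P 7 :=
    fix_step hF (b := 7) (tb := 15) (w := 24) (by norm_num) (by norm_num) (by norm_num) k24
      (by decide +kernel) (by decide +kernel)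
  have k15 : g.1 (P 15) = P 15 :=
    fix_step hF (b := 15) (tb := 7) (w := 24) (by norm_num) (by norm_num) (by norm_num) k24
      (by decide +kernel) (by decide +kernel)
  apply Subtype.ext
  apply eq_one_of_fix g.2.1
  intro j hj
  interval_cases j
  · exact hF 0 (by decide)
  · exact hF 1 (by decide)
  · exact k2
  · exact k3
  · exact k4
  · exact hF 5 (by decide)
  · exact k6
  · exact k7
  · exact hF 8 (by decide)
  · exact k9
  · exact k10
  · exact k11
  · exact k12
  · exact k13
  · exact k14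
  · exact k15
  · exact k16
  · exact k17
  · exact k18
  · exact k19
  · exact k20
  · exact k21
  · exact k22
  · exact hF 23 (by decide)

/-! ### The action -/

/-- The involution as an element of the McLaughlin group. -/
noncomputable def tMc : ↥Mc := ⟨tM, tM_mem⟩

/-- The centraliser of the involution. -/
abbrev CT : Subgroup ↥Mc := Subgroup.centralizer ({tMc} : Set ↥Mc)

theorem ct_fix (c : ↥CT) : c.1.1.1 (P 0) = P 0 := mem_Mc.mp c.1.2

theorem ct_comm (c : ↥CT) : c.1.1 * tM = tM * c.1.1 := by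
  have h := Subgroup.mem_centralizer_iff.mp c.2 tMc rfl
  exact (congrArg Subtype.val h).symm

theorem ct_img (c : ↥CT) (i : Fin 35) : ∃ j : Fin 35, c.1.1.1 (P (rr i)) = P (rr j) := by
  obtain ⟨j, hj, e⟩ := rep_img (ct_fix c) (ct_comm c) i.2
  exact ⟨⟨j, hj⟩, e⟩

/-- The image of the `i`-th point. -/
noncomputable def fI (c : ↥CT) (i : Fin 35) : Fin 35 := Classical.choose (ct_img c i)

theorem fI_spec (c : ↥CT) (i : Fin 35) : c.1.1.1 (P (rr i)) = P (rr (fI c i)) :=
  Classical.choose_spec (ct_img c i)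

theorem Prr_inj {i j : Fin 35} (h : P (rr i) = P (rr j)) : i = j :=
  Fin.ext (rr_injN i i.2 j j.2 (P_inj (rr_lt i.2) (rr_lt j.2) h))

/-- The action of the centraliser on the 35 points. -/
noncomputable def ctAct : MulAction ↥CT (Fin 35) where
  smul c i := fI c i
  one_smul i := by
    apply Prr_inj
    show P (rr (fI 1 i)) = P (rr i)
    rw [← fI_spec]
    rfl
  mul_smul c c' i := by
    apply Prr_inj
    show P (rr (fI (c * c') i)) = P (rr (fI c (fI c' i)))
    rw [← fI_spec, ← fI_spec c, ← fI_spec c']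
    rfl

/-- The permutation representation. -/
noncomputable def phi : ↥CT →* Equiv.Perm (Fin 35) := @MulAction.toPermHom ↥CT (Fin 35) _ ctAct

theorem phi_spec (c : ↥CT) (i : Fin 35) : c.1.1.1 (P (rr i)) = P (rr (phi c i)) := fI_spec c i

theorem tM_fix_rr (i : Fin 35) : tM.1 (P (rr i)) = P (rr i) := by
  rw [(actsT _ (rr_lt i.2)).2, rr_fix i.2]

theorem cand2 : (List.range 552).all (fun y => !(fL.all (fun f => Gq y f 2 f)) ||
    Nat.beq y 2 || Nat.beq y 377) = true := by decide +kernel

theorem phi_ker (c : ↥CT) : phi c = 1 ↔ ((c : ↥Mc) = 1 ∨ (c : ↥Mc) = tMc) := by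
  constructor
  · intro h
    have hF : ∀ f ∈ fL, c.1.1.1 (P f) = P f := by
      intro f hf
      rcases List.mem_cons.mp hf with rfl | hf
      · exact ct_fix c
      · obtain ⟨j, hj, rfl⟩ := mem_rL hf
        have h1 := phi_spec c ⟨j, hj⟩
        rw [h] at h1
        exact h1
    obtain ⟨y, hy, e⟩ := exists_pt c.1.1.2 (show 2 < 552 by norm_num)
    rcases cand_of hF (by norm_num) hy e cand2 with h2 | h2
    · left
      rw [h2] at e
      exact Subtype.ext (ker_one hF e)
    · right
      rw [h2] at e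
      have hF' : ∀ f ∈ fL, (tM * c.1.1).1 (P f) = P f := by
        intro f hf
        show tM.1 (c.1.1.1 (P f)) = P f
        rw [hF f hf, (actsT f (fL_lt f hf)).2, fL_fix f hf]
      have h2' : (tM * c.1.1).1 (P 2) = P 2 := by
        show tM.1 (c.1.1.1 (P 2)) = P 2
        rw [e, (actsT 377 (by norm_num)).2]
        exact congrArg P (by decide +kernel : ln tT 377 = 2)
      have h1 := ker_one hF' h2'
      have h3 : c.1.1 = tM := by
        calc c.1.1 = (tM * tM) * c.1.1 := by rw [tM_sq, one_mul]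
          _ = tM * (tM * c.1.1) := mul_assoc _ _ _
          _ = tM := by rw [h1, mul_one]
      exact Subtype.ext h3
  · intro h
    apply Equiv.ext
    intro i
    apply Prr_inj
    rw [← phi_spec]
    rcases h with h | h
    · rw [h]
      rfl
    · rw [h]
      exact tM_fix_rr i

/-! ### Adjacency -/

theorem adj_ok : (List.finRange 35).all (fun i => (List.finRange 35).all (fun j =>
    (MCI.splitAdj i j == Gq (rr i) (rr j) (rr 0) (rr 9)))) = true := by decide +kernel

theorem phi_adj (c : ↥CT) (i j : Fin 35) :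
    MCI.splitAdj (phi c i) (phi c j) = MCI.splitAdj i j := by
  have h1 : ∀ a b : Fin 35, MCI.splitAdj a b = Gq (rr a) (rr b) (rr 0) (rr 9) := by
    intro a b
    have h2 := List.all_eq_true.mp (List.all_eq_true.mp adj_ok a (List.mem_finRange a)) b
      (List.mem_finRange b)
    exact eq_of_beq h2
  rw [h1, h1]
  have hG : G (rr (phi c i)) (rr (phi c j)) = G (rr i) (rr j) := by
    rw [← dot_P (rr_lt (phi c i).2) (rr_lt (phi c j).2), ← dot_P (rr_lt i.2) (rr_lt j.2),
      ← phi_spec c i, ← phi_spec c j]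
    exact co0_dotInt c.1.1.2.1 _ _
  rw [Bool.eq_iff_iff, Gq_iff (rr_lt (phi c i).2) (rr_lt (phi c j).2) (rr_lt (by norm_num))
    (rr_lt (by norm_num)), Gq_iff (rr_lt i.2) (rr_lt j.2) (rr_lt (by norm_num))
    (rr_lt (by norm_num)), hG]

/-! ### Lifts of the generators -/

theorem mem_CT {g : ↥Spor.Co3} (hg : g ∈ Mc) (hc : g * tM = tM * g) :
    (⟨g, hg⟩ : ↥Mc) ∈ CT := by
  rw [Subgroup.mem_centralizer_iff]
  intro h hh
  rw [Set.mem_singleton_iff] at hh
  rw [hh]
  exact Subtype.ext hc.symm

/-- The lift of the 3-cycle in the centraliser. -/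
noncomputable def c1C : ↥CT := ⟨⟨c1M, c1M_mem⟩, mem_CT c1M_mem c1_comm⟩

/-- The lift of the 7-cycle in the centraliser. -/
noncomputable def c2C : ↥CT := ⟨⟨c2M, c2M_mem⟩, mem_CT c2M_mem c2_comm⟩

theorem c1_l1 : (List.range 35).all (fun i => Nat.blt (MCI.l1.getD i 0) 35 &&
    Nat.beq (ln tC1 (rr i)) (rr (MCI.l1.getD i 0))) = true := by decide +kernel

theorem c2_l2 : (List.range 35).all (fun i => Nat.blt (MCI.l2.getD i 0) 35 &&
    Nat.beq (ln tC2 (rr i)) (rr (MCI.l2.getD i 0))) = true := by decide +kernel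

theorem phi_val {c : ↥CT} {T : ℕ} (hc : Acts c.1.1.1 T) {l : List ℕ}
    (hl : (List.range 35).all (fun i => Nat.blt (l.getD i 0) 35 &&
      Nat.beq (ln T (rr i)) (rr (l.getD i 0))) = true) (i : Fin 35) :
    ((phi c i : Fin 35) : ℕ) = l.getD i.1 0 := by
  have h1 := phi_spec c i
  have h2 := (hc (rr i) (rr_lt i.2)).2
  have h3 := all_range hl i i.2
  rw [Bool.and_eq_true] at h3
  have h4 : l.getD i 0 < 35 := Nat.blt_eq.mp h3.1
  have h5 : ln T (rr i) = rr (l.getD i 0) := Nat.eq_of_beq_eq_true h3.2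
  rw [h2, h5] at h1
  exact rr_injN _ (phi c i).2 _ h4 (P_inj (rr_lt (phi c i).2) (rr_lt h4) h1.symm)

theorem phi_c1 (i : Fin 35) : ((phi c1C i : Fin 35) : ℕ) = MCI.l1.getD i.1 0 :=
  phi_val (c := c1C) actsC1 c1_l1 i

theorem phi_c2 (i : Fin 35) : ((phi c2C i : Fin 35) : ℕ) = MCI.l2.getD i.1 0 :=
  phi_val (c := c2C) actsC2 c2_l2 i

theorem order_tMc : orderOf tMc = 2 := by
  apply orderOf_eq_prime
  · rw [pow_two]
    exact Subtype.ext tM_sq
  · intro h
    exact tM_ne (congrArg Subtype.val h)

theorem c4_sq_Mc : (⟨c4M, c4M_mem⟩ : ↥Mc) ^ 2 = tMc := by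
  rw [pow_two]
  exact Subtype.ext c4_sq

theorem card_Mc_not_dvd : ¬ 2 ^ 8 ∣ Nat.card ↥Mc := by
  rw [card_Mc]
  decide

/-- The centraliser of the involution is a non-split double cover of `A8`, given the abstract
core. -/
theorem mc_core (hCore : MCI.PkgCore) :
    Cfsg.IsNonsplitDoubleCover ↥(Subgroup.centralizer ({tMc} : Set ↥Mc))
      ↥(alternatingGroup (Fin 8)) :=
  hCore tMc order_tMc card_Mc_not_dvd phi phi_ker phi_adj ⟨c1C, phi_c1⟩ ⟨c2C, phi_c2⟩
    ⟨⟨c4M, c4M_mem⟩, c4_sq_Mc⟩

end Cfsg.Agent.Lib.Helper26.Co3
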