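import Cfsg.Agent.Lib.Helper26.McInvKer

set_option autoImplicit false

/-! # A Sylow 2-subgroup of the McLaughlin group and its involutions (S2132) -/

namespace Cfsg.Agent.Lib.Helper26.Co3

open Cfsg Cfsg.Spor Cfsg.Agent.Lib.Helper7 Cfsg.Agent.Lib.Helper92

/-- Tables of seven generators of the Sylow 2-subgroup. -/
def gL : List ℕ := [sT.getD 1 idT, sT.getD 2 idT, sT.getD 3 idT, sT.getD 4 idT, sT.getD 5 idT, sT.getD 6 idT, sT.getD 7 idT]

/-- The program computing the 128 tables from the generators. -/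
def sprog : List Ins := [.mul 99999 99999, .mul 0 1, .mul 1 3, .mul 2 5, .mul 3 7, .mul 4 9, .mul 5 11, .mul 6 13, .mul 6 9, .mul 7 11, .mul 8 13, .mul 9 15, .mul 10 17, .mul 11 19, .mul 11 14, .mul 12 17, .mul 13 19, .mul 14 21, .mul 15 23, .mul 16 25, .mul 16 23, .mul 17 25, .mul 18 27, .mul 19 29, .mul 19 26, .mul 20 29, .mul 21 31, .mul 22 33, .mul 22 28, .mul 23 30, .mul 24 32, .mul 25 34, .mul 26 37, .mul 27 39, .mul 27 35, .mul 28 38, .mul 29 40, .mul 30 43, .mul 29 40, .mul 30 42, .mul 31 44, .mul 32 46, .mul 32 45, .mul 33 47, .mul 34 49, .mul 35 51, .mul 35 48, .mul 36 51, .mul 37 53, .mul 38 55, .mul 38 52, .mul 39 54, .mul 40 57, .mul 40 54, .mul 41 57, .mul 42 59, .mul 43 62, .mul 42 59, .mul 43 61, .mul 43 62, .mul 44 64, .mul 45 66, .mul 46 68, .mul 46 65, .mul 47 68, .mul 48 70, .mul 49 72, .mul 49 69, .mul 50 71, .mul 51 74, .mul 52 76, .mul 52 72, .mul 53 76, .mul 52 77, .mul 53 79, .mul 53 76, .mul 54 81, .mul 54 78, .mul 55 81, .mul 56 83, .mul 57 86, .mul 55 81, .mul 56 83, .mul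 57 88, .mul 58 90, .mul 58 89, .mul 57 89, .mul 57 89, .mul 58 91, .mul 59 94, .mul 58 95, .mul 58 92, .mul 59 95, .mul 54 96, .mul 55 99, .mul 55 97, .mul 56 100, .mul 57 102, .mul 57 101, .mul 57 100, .mul 57 105, .mul 57 106, .mul 57 103, .mul 58 106, .mul 59 108, .mul 60 111, .mul 58 111, .mul 58 111, .mul 56 113, .mul 56 110, .mul 50 114, .mul 51 116, .mul 51 117, .mul 51 114, .mul 52 118, .mul 50 120, .mul 51 122, .mul 51 121, .mul 49 123, .mul 49 120, .mul 44 125, .mul 44 124, .mul 39 127, .mul 39 126, .mul 35 129, .mul 35 126, .mul 32 131, .mul 32 128]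

set_option maxRecDepth 100000 in
theorem srun : ((run sprog gL).take 128).reverse = sT := by decide +kernel

set_option maxRecDepth 100000 in
theorem sT_closed : sT.all (fun A => gL.all (fun B => sT.contains (compT A B))) = true := by
  decide +kernel

theorem sT_len : sT.length = 128 := by decide +kernel

theorem uT_len : uT.length = 34 := by decide +kernel

set_option maxRecDepth 100000 in
theorem sT_nodup : nodupN sT = true := by decide +kernel

set_option maxRecDepth 100000 in
theorem sT_canon : sT.all (fun A => Nat.beq (compT A idT) A) = true := by decide +kernel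

set_option maxRecDepth 100000 in
theorem sT_one : sT.contains idT = true := by decide +kernel

set_option maxRecDepth 100000 in
theorem sT_fix0 : sT.all (fun A => Nat.beq (ln A 0) 0) = true := by decide +kernel

set_option maxRecDepth 100000 in
theorem gL_sub : gL.all (fun B => sT.contains B) = true := by decide +kernel

theorem packT_congr {f g : ℕ → ℕ} : ∀ n : ℕ, (∀ i < n, f i = g i) → packT f n = packT g n := by
  intro n
  induction n with
  | zero => intro _; rfl
  | succ n ih =>
    intro h
    show Nat.add (Nat.shiftLeft (f n) (Nat.mul 10 n)) (packT f n) =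
      Nat.add (Nat.shiftLeft (g n) (Nat.mul 10 n)) (packT g n)
    rw [h n (Nat.lt_succ_self n), ih (fun i hi => h i (Nat.lt_succ_of_lt hi))]

theorem tab_unique {g : Equiv.Perm leechLattice} {A B : ℕ} (hA : Acts g A) (hB : Acts g B)
    (cA : compT A idT = A) (cB : compT B idT = B) : A = B := by
  rw [← cA, ← cB]
  unfold compT
  apply packT_congr
  intro i hi
  rw [ln_idT hi]
  exact P_inj (hA i hi).1 (hB i hi).1 ((hA i hi).2.symm.trans (hB i hi).2)

/-- The generators. -/
def gSet : Set ↥Spor.Co3 := {g | ∃ B ∈ gL, Acts g.1 B}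

/-- The subgroup generated by the seven generators. -/
def S3 : Subgroup ↥Spor.Co3 := Subgroup.closure gSet

theorem real_gL : ∀ B ∈ gL, Real S3 B := by
  intro B hB
  have hmem : B ∈ sT := List.contains_iff_mem.mp (List.all_eq_true.mp gL_sub B hB)
  obtain ⟨g, -, hg⟩ := real_all B (List.mem_append_right _ hmem)
  exact ⟨g, Subgroup.subset_closure ⟨B, hB, hg⟩, hg⟩

theorem real_sT : ∀ T ∈ sT, Real S3 T := by
  intro T hT
  rw [← srun, List.mem_reverse] at hT
  exact real_run sprog real_gL T (List.mem_of_mem_take hT)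

theorem S3_tab : ∀ g ∈ S3, ∃ T ∈ sT, Acts g.1 T := by
  intro g hg
  have hstep : ∀ (x y : ↥Spor.Co3), y ∈ gSet → (∃ T ∈ sT, Acts x.1 T) →
      ∃ T ∈ sT, Acts (x * y).1 T := by
    rintro x y ⟨B, hB, hb⟩ ⟨A, hA, ha⟩
    exact ⟨compT A B, List.contains_iff_mem.mp
      (List.all_eq_true.mp (List.all_eq_true.mp sT_closed A hA) B hB), acts_mul ha hb⟩
  refine Subgroup.closure_induction_right (p := fun x _ => ∃ T ∈ sT, Acts x.1 T) ?_ ?_ ?_ hg
  · exact ⟨idT, List.contains_iff_mem.mp sT_one, acts_one⟩
  · intro x _ y hy hpx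
    exact hstep x y hy hpx
  · intro x _ y hy hpx
    have key : ∀ n : ℕ, ∃ T ∈ sT, Acts (x * y ^ n).1 T := by
      intro n
      induction n with
      | zero => rw [pow_zero, mul_one]; exact hpx
      | succ n ih =>
        have e : x * y ^ (n + 1) = (x * y ^ n) * y := by rw [pow_succ, mul_assoc]
        rw [e]
        exact hstep _ y hy ih
    have hpos : 0 < orderOf y := orderOf_pos y
    have h : y⁻¹ = y ^ (orderOf y - 1) := by
      apply inv_eq_of_mul_eq_one_right
      rw [← pow_succ', Nat.sub_add_cancel hpos, pow_orderOf_eq_one]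
    rw [h]
    exact key _

theorem S3_le : S3 ≤ Mc := by
  intro g hg
  obtain ⟨T, hT, hacts⟩ := S3_tab g hg
  rw [mem_Mc, (hacts 0 (by norm_num)).2,
    Nat.eq_of_beq_eq_true (List.all_eq_true.mp sT_fix0 T hT)]

theorem card_S3_le : Nat.card S3 ≤ 128 := by
  have hex : ∀ s : S3, ∃ T ∈ sT, Acts s.1.1 T := fun s => S3_tab s.1 s.2
  choose tb htb hacts using hex
  let F : S3 → Fin sT.length := fun s => ⟨sT.idxOf (tb s), List.idxOf_lt_length_of_mem (htb s)⟩
  have hF : Function.Injective F := by
    intro s s' h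
    have h1 : sT.idxOf (tb s) = sT.idxOf (tb s') := congrArg Fin.val h
    have h2 : tb s = tb s' := (List.idxOf_inj (htb s)).mp h1
    have h3 := hacts s'
    rw [← h2] at h3
    exact Subtype.ext (co3_ext (hacts s) h3)
  have := Nat.card_le_card_of_injective F hF
  rwa [Nat.card_fin, sT_len] at this

theorem card_S3_ge : 128 ≤ Nat.card S3 := by
  have hex : ∀ i : Fin sT.length, ∃ g ∈ S3, Acts g.1 (sT.get i) := fun i =>
    real_sT _ (List.get_mem sT i)
  choose w hw hacts using hex
  let F : Fin sT.length → S3 := fun i => ⟨w i, hw i⟩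
  have hF : Function.Injective F := by
    intro i j h
    have h1 : w i = w j := congrArg Subtype.val h
    have h2 := hacts i
    rw [h1] at h2
    have cA := Nat.eq_of_beq_eq_true (List.all_eq_true.mp sT_canon _ (List.get_mem sT i))
    have cB := Nat.eq_of_beq_eq_true (List.all_eq_true.mp sT_canon _ (List.get_mem sT j))
    have h3 : sT.get i = sT.get j := tab_unique h2 (hacts j) cA cB
    exact (List.Nodup.get_inj_iff (nodupN_sound sT sT_nodup)).mp h3
  have := Nat.card_le_card_of_injective F hF
  rwa [Nat.card_fin, sT_len] at this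

/-- A Sylow 2-subgroup of the stabiliser. -/
def SylS : Subgroup ↥Mc := S3.subgroupOf Mc

theorem card_SylS : Nat.card SylS = 2 ^ 7 := by
  unfold SylS
  rw [Nat.card_congr (Subgroup.subgroupOfEquivOfLe S3_le).toEquiv]
  exact le_antisymm card_S3_le card_S3_ge

/-- The table is that of an involution. -/
def isInvT (T : ℕ) : Bool :=
  (List.range 552).all (fun p => Nat.beq (ln T (ln T p)) p) &&
    !((List.range 552).all (fun p => Nat.beq (ln T p) p))

set_option maxRecDepth 100000 in
theorem inv_ok : (List.range 128).all (fun i => !(isInvT (sT.getD i idT)) ||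
    Nat.beq (sT.getD i idT) tT ||
    cL.any (fun q => Nat.beq q.1 i &&
      Nat.beq (compT (uT.getD q.2 idT) tT) (compT (sT.getD i idT) (uT.getD q.2 idT)) &&
      Nat.blt q.2 34)) = true := by decide +kernel

theorem syl_conj (s : ↥Mc) (hs : s ∈ SylS) (ho : orderOf s = 2) : IsConj s tMc := by
  obtain ⟨T, hT, hacts⟩ := S3_tab s.1 (Subgroup.mem_subgroupOf.mp hs)
  obtain ⟨i, hi, hTi⟩ := List.mem_iff_getElem.mp hT
  have hi' : i < 128 := by rw [← sT_len]; exact hi
  have hinv : isInvT T = true := by
    unfold isInvT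
    rw [Bool.and_eq_true]
    constructor
    · rw [List.all_eq_true]
      intro p hp
      have hp' := List.mem_range.mp hp
      have h1 : s * s = 1 := by rw [← pow_two, ← ho]; exact pow_orderOf_eq_one s
      have h2 : (s * s).1.1 (P p) = P p := by rw [h1]; rfl
      have h3 : (s * s).1.1 (P p) = s.1.1 (s.1.1 (P p)) := rfl
      rw [h3, (hacts p hp').2, (hacts _ (hacts p hp').1).2] at h2
      have h6 := P_inj (hacts _ (hacts p hp').1).1 hp' h2
      rw [h6]
      exact Nat.beq_refl p
    · cases hall : (List.range 552).all (fun p => Nat.beq (ln T p) p) with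
      | false => rfl
      | true =>
        exfalso
        have h1 : Acts (1 : ↥Spor.Co3).1 T := by
          intro p hp
          have h2 := Nat.eq_of_beq_eq_true (all_range hall p hp)
          rw [h2]
          exact ⟨hp, rfl⟩
        have h3 : s = 1 := Subtype.ext (co3_ext hacts h1)
        rw [h3, orderOf_one] at ho
        exact absurd ho (by norm_num)
  have h4 := all_range inv_ok i hi'
  rw [List.getD_eq_getElem _ _ hi, hTi, hinv] at h4
  simp only [Bool.not_true, Bool.false_or, Bool.or_eq_true, List.any_eq_true,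
    Bool.and_eq_true] at h4
  rcases h4 with h | ⟨q, -, ⟨-, hq2⟩, hq3⟩
  · have e := Nat.eq_of_beq_eq_true h
    rw [e] at hacts
    have h5 : s = tMc := Subtype.ext (co3_ext hacts actsT)
    rw [h5]
  · have hk : q.2 < uT.length := by rw [uT_len]; exact Nat.blt_eq.mp hq3
    have hU : Real Mc (uT.getD q.2 idT) := by
      rw [List.getD_eq_getElem _ _ hk]
      exact real_all _ (List.mem_append_left _ (List.mem_append_right _ (List.getElem_mem hk)))
    obtain ⟨u, hu, hactsU⟩ := hU
    have e := Nat.eq_of_beq_eq_true hq2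
    have h5 : u * tM = s.1 * u :=
      co3_ext (acts_mul hactsU actsT) ((acts_mul hacts hactsU).congr e.symm)
    rw [isConj_comm, isConj_iff]
    refine ⟨⟨u, hu⟩, ?_⟩
    rw [mul_inv_eq_iff_eq_mul]
    exact Subtype.ext h5

/-- All involutions of the stabiliser are conjugate, given the abstract Sylow package. -/
theorem mc_one_class (hSyl : MCI.PkgSyl) :
    ∀ x y : ↥Mc, orderOf x = 2 → orderOf y = 2 → IsConj x y :=
  hSyl SylS tMc 7 card_SylS (by rw [card_Mc]; decide) syl_conj

/-- The statement of S2132 for the stabiliser. -/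
theorem mc_stmt (hSyl : MCI.PkgSyl) (hCore : MCI.PkgCore) : MCI.Stmt ↥Mc :=
  ⟨mc_one_class hSyl, tMc, order_tMc, mc_core hCore⟩

/-- The statement of S2132 for the McLaughlin group. -/
theorem mcl_stmt (hSyl : MCI.PkgSyl) (hCore : MCI.PkgCore) (hTr : MCI.PkgTransport) :
    MCI.Stmt ↥Spor.McL := by
  have e1 : ↥(Spor.McL.subgroupOf Spor.Co3) ≃* ↥Spor.McL :=
    Subgroup.subgroupOfEquivOfLe inf_le_left
  have e2 : ↥(Spor.McL.subgroupOf Spor.Co3) ≃* ↥Mc := MulEquiv.subgroupCongr mcl_eq
  exact hTr (e2.symm.trans e1) (mc_stmt hSyl hCore)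

end Cfsg.Agent.Lib.Helper26.Co3
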