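import Cfsg.Agent.Lib.Helper26.SylChk

set_option autoImplicit false

namespace Cfsg.Agent.Lib.Helper26

open Cfsg.Agent.Lib.Helper7

/-! ### A Sylow 2-subgroup of the Mathieu group of degree 24 -/

theorem canonT_mulT (s t : ℕ) : canonT (mulT s t) = mulT s t := by
  unfold canonT
  show packTab (fun i => nlane (mulT s t) i) 24 = packTab (fun i => nlane s (nlane t i)) 24
  exact packTab_congr 24 (fun i hi => nlane_mulT s t hi)

theorem mulT_eq_of_eq {σ τ σ' τ' : Equiv.Perm Cfsg.GolayPt} {s t s' t' : ℕ}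
    (h1 : RepT σ s) (h2 : RepT τ t) (h3 : RepT σ' s') (h4 : RepT τ' t')
    (h : σ * τ = σ' * τ') : mulT s t = mulT s' t' := by
  have h5 : RepT (σ * τ) (mulT s' t') := by
    rw [h]
    exact h3.mul h4
  have h6 := canonT_eq_of_repT (h1.mul h2) h5
  rwa [canonT_mulT, canonT_mulT] at h6

theorem rep_words (ws : List (List ℕ)) :
    List.Forall₂ RepT (ws.map (evalW letters2)) (ws.map (evalT ltabs2)) := by
  induction ws with
  | nil => exact List.Forall₂.nil
  | cons w ws ih => exact List.Forall₂.cons (repT_evalW letters2_rep w) ih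

theorem allB_of {f : ℕ → Bool} {n : ℕ} (h : ∀ i < n, f i = true) : allB f n = true := by
  induction n with
  | zero => rfl
  | succ n ih =>
    simp only [allB, Bool.and_eq_true]
    exact ⟨h n (Nat.lt_succ_self n), ih (fun i hi => h i (Nat.lt_succ_of_lt hi))⟩

/-- A table enumerating a group without repetition reaches every position. -/
theorem exists_of_table {H : Subgroup (Equiv.Perm Cfsg.GolayPt)} {n : ℕ} {tab : ℕ → ℕ}
    (hmem : ∀ σ, σ ∈ H ↔ ∃ i < n, RepT σ (tab i)) (hcard : Nat.card ↥H = n) :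
    ∀ i < n, ∃ σ : ↥H, RepT σ.1 (tab i) := by
  intro i hi
  have hn : n ≠ 0 := by omega
  have : Finite ↥H := Nat.finite_of_card_ne_zero (by rw [hcard]; exact hn)
  have hex : ∀ σ : ↥H, ∃ k : Fin n, RepT σ.1 (tab k.1) := by
    intro σ
    obtain ⟨k, hk, h⟩ := (hmem σ.1).mp σ.2
    exact ⟨⟨k, hk⟩, h⟩
  choose φ hφ using hex
  have hinj : Function.Injective φ := by
    intro σ τ e
    have h1 := hφ σ
    rw [e] at h1
    exact Subtype.ext (h1.ext (hφ τ))
  have hbij : Function.Bijective φ :=
    hinj.bijective_of_nat_card_le (by rw [Nat.card_fin, hcard])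
  obtain ⟨σ, hσ⟩ := hbij.2 ⟨i, hi⟩
  refine ⟨σ, ?_⟩
  have h1 := hφ σ
  rw [hσ] at h1
  exact h1

/-- The four generators. -/
noncomputable def sylGens : List (Equiv.Perm Cfsg.GolayPt) := sylWs.map (evalW letters2)

/-- The six generators of the subgroup. -/
noncomputable def sylAGens : List (Equiv.Perm Cfsg.GolayPt) := sylAWs.map (evalW letters2)

theorem sylGens_rep : List.Forall₂ RepT sylGens sylGt := by
  have h := rep_words sylWs
  rw [sylGt_eq] at h
  exact h

theorem sylAGens_rep : List.Forall₂ RepT sylAGens sylAGt := by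
  have h := rep_words sylAWs
  rw [sylAGt_eq] at h
  exact h

/-- A Sylow 2-subgroup of the Mathieu group of degree 24. -/
noncomputable def sylP : Subgroup (Equiv.Perm Cfsg.GolayPt) := Subgroup.closure {g | g ∈ sylGens}

/-- Its subgroup of order 128 that is abelian modulo the centre. -/
noncomputable def sylA : Subgroup (Equiv.Perm Cfsg.GolayPt) := Subgroup.closure {g | g ∈ sylAGens}

theorem sylP_table : (∀ σ, σ ∈ sylP ↔ ∃ i < 1024, RepT σ (sylTab i)) ∧ Nat.card ↥sylP = 1024 :=
  table_group sylGens_rep 1024 sylTab sylNxt sylPar sylGen sylDep 1023 (by norm_num) syl_root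
    syl_nxt syl_reach syl_sorted

theorem sylA_table : (∀ σ, σ ∈ sylA ↔ ∃ i < 128, RepT σ (sylATab i)) ∧ Nat.card ↥sylA = 128 :=
  table_group sylAGens_rep 128 sylATab sylANxt sylAPar sylAGen sylADep 127 (by norm_num) sylA_root
    sylA_nxt sylA_reach sylA_sorted

theorem sylP_le_M24 : sylP ≤ Cfsg.M24 :=
  (Subgroup.closure_le _).mpr (fun g hg => words_mem_M24 sylWs g hg)

theorem sylA_le : sylA ≤ sylP := by
  refine (Subgroup.closure_le _).mpr ?_
  intro g hg
  obtain ⟨s, hs, rfl⟩ := exists_getD_of_mem 1 (show g ∈ sylAGens from hg)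
  have hs6 : s < 6 := by
    have : sylAGens.length = 6 := by
      unfold sylAGens
      rw [List.length_map]
      rfl
    omega
  have h1 := allB_spec sylA_gens s hs6
  simp only [Bool.and_eq_true, decide_eq_true_eq, beq_iff_eq] at h1
  have h2 := repT_getD sylAGens_rep s
  rw [h1.2] at h2
  exact sylP_table.1 _ |>.mpr ⟨_, h1.1, h2⟩

instance sylP_finite : Finite ↥sylP :=
  Nat.finite_of_card_ne_zero (by rw [sylP_table.2]; norm_num)

/-- The element of the Sylow subgroup at a position of the large table. -/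
noncomputable def sylXs (i : ℕ) : ↥sylP :=
  if h : i < 1024 then Classical.choose (exists_of_table sylP_table.1 sylP_table.2 i h) else 1

theorem sylXs_rep {i : ℕ} (hi : i < 1024) : RepT (sylXs i).1 (sylTab i) := by
  unfold sylXs
  rw [dif_pos hi]
  exact Classical.choose_spec (exists_of_table sylP_table.1 sylP_table.2 i hi)

theorem sylXs_surj (g : ↥sylP) : ∃ i < 1024, RepT g.1 (sylTab i) ∧ g = sylXs i := by
  obtain ⟨i, hi, h⟩ := (sylP_table.1 g.1).mp g.2
  exact ⟨i, hi, h, Subtype.ext (h.ext (sylXs_rep hi))⟩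

/-- The element of the subgroup at a position of the small table. -/
noncomputable def sylYs (j : ℕ) : ↥sylP :=
  if h : j < 128 then
    ⟨(Classical.choose (exists_of_table sylA_table.1 sylA_table.2 j h)).1,
      sylA_le (Classical.choose (exists_of_table sylA_table.1 sylA_table.2 j h)).2⟩
  else 1

theorem sylYs_rep {j : ℕ} (hj : j < 128) : RepT (sylYs j).1 (sylATab j) := by
  unfold sylYs
  rw [dif_pos hj]
  exact Classical.choose_spec (exists_of_table sylA_table.1 sylA_table.2 j hj)

theorem sylYs_mem {j : ℕ} (hj : j < 128) : (sylYs j).1 ∈ sylA := by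
  unfold sylYs
  rw [dif_pos hj]
  exact (Classical.choose (exists_of_table sylA_table.1 sylA_table.2 j hj)).2

theorem sylYs_surj (g : ↥sylP) (hg : g.1 ∈ sylA) : ∃ j < 128, RepT g.1 (sylATab j) ∧ g = sylYs j := by
  obtain ⟨j, hj, h⟩ := (sylA_table.1 g.1).mp hg
  exact ⟨j, hj, h, Subtype.ext (h.ext (sylYs_rep hj))⟩

/-- The central involution. -/
noncomputable def sylZ : ↥sylP := sylXs 1010

theorem sylZ_rep : RepT sylZ.1 sylZT := by
  have h := sylXs_rep (i := 1010) (by norm_num)
  rw [syl_z] at h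
  exact h

theorem sylZ_memA : sylZ.1 ∈ sylA := by
  refine (sylA_table.1 _).mpr ⟨126, by norm_num, ?_⟩
  rw [sylA_z]
  exact sylZ_rep

theorem sylZ_sq : sylZ * sylZ = 1 := by
  apply Subtype.ext
  have h := sylZ_rep.mul sylZ_rep
  rw [syl_z_sq] at h
  exact h.ext repT_one

theorem sylZ_ne : sylZ ≠ 1 := by
  intro h
  have h1 := sylZ_rep
  rw [h] at h1
  exact syl_z_ne (canonT_eq_of_repT h1 repT_one)

theorem sylXs_root : sylXs 1023 = 1 := by
  apply Subtype.ext
  have h := sylXs_rep (i := 1023) (by norm_num)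
  rw [syl_root] at h
  exact h.ext repT_one

theorem sylGens_getD_mem (s : ℕ) : sylGens.getD s 1 ∈ sylP := by
  by_cases hs : s < sylGens.length
  · exact Subgroup.subset_closure (getD_mem_of_lt sylGens 1 hs)
  · rw [List.getD_eq_default _ _ (by omega)]
    exact Subgroup.one_mem _

theorem sylGens_length : sylGens.length = 4 := by
  unfold sylGens
  rw [List.length_map]
  rfl

/-- The generators as elements of the Sylow subgroup. -/
noncomputable def sylGam (s : ℕ) : ↥sylP := ⟨sylGens.getD s 1, sylGens_getD_mem s⟩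

theorem sylGam_rep (s : ℕ) : RepT (sylGam s).1 (sylGt.getD s idT) := repT_getD sylGens_rep s

theorem sylZ_comm (g : ↥sylP) : sylZ * g = g * sylZ := by
  apply Subtype.ext
  show sylZ.1 * g.1 = g.1 * sylZ.1
  have hle : sylP ≤ Subgroup.centralizer {sylZ.1} := by
    refine (Subgroup.closure_le _).mpr ?_
    intro x hx
    obtain ⟨s, hs, rfl⟩ := exists_getD_of_mem 1 (show x ∈ sylGens from hx)
    rw [sylGens_length] at hs
    have h1 := allB_spec syl_z_central s hs
    rw [beq_iff_eq] at h1
    have h2 : RepT (sylGens.getD s 1) (sylGt.getD s idT) := repT_getD sylGens_rep s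
    rw [SetLike.mem_coe, Subgroup.mem_centralizer_iff]
    intro y hy
    rw [Set.mem_singleton_iff] at hy
    rw [hy]
    have h3 := sylZ_rep.mul h2
    rw [h1] at h3
    exact h3.ext (h2.mul sylZ_rep)
  have h := Subgroup.mem_centralizer_iff.mp (hle g.2) sylZ.1 (Set.mem_singleton _)
  exact h

theorem syl_center_iff (g : ↥sylP) : g ∈ Subgroup.center ↥sylP ↔ g = 1 ∨ g = sylZ := by
  constructor
  · intro hg
    rw [Subgroup.mem_center_iff] at hg
    obtain ⟨i, hi, hrep, -⟩ := sylXs_surj g
    have h := allB_spec syl_centre i hi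
    simp only [Bool.or_eq_true, beq_iff_eq] at h
    rcases h with (h | h) | h
    · left
      apply Subtype.ext
      rw [h, syl_root] at hrep
      exact hrep.ext repT_one
    · right
      apply Subtype.ext
      rw [h, syl_z] at hrep
      exact hrep.ext sylZ_rep
    · exfalso
      obtain ⟨s, hs, h1⟩ := someB_spec h
      have h2 : g.1 * (sylGam s).1 = (sylGam s).1 * g.1 :=
        (congrArg Subtype.val (hg (sylGam s))).symm
      have h3 := mulT_eq_of_eq hrep (sylGam_rep s) (sylGam_rep s) hrep h2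
      rw [h3] at h1
      simp at h1
  · rintro (rfl | rfl)
    · exact Subgroup.one_mem _
    · rw [Subgroup.mem_center_iff]
      intro h
      exact (sylZ_comm h).symm

/-! ### Commutation modulo the centre -/

theorem commZ_of {σ τ : Equiv.Perm Cfsg.GolayPt} {s t : ℕ} (hσ : RepT σ s) (hτ : RepT τ t)
    (h : σ * τ = τ * σ ∨ σ * τ = sylZ.1 * (τ * σ)) : commZ s t = true := by
  unfold commZ commZAux
  rw [Bool.or_eq_true, beq_iff_eq, beq_iff_eq]
  rcases h with h | h
  · left
    exact mulT_eq_of_eq hσ hτ hτ hσ h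
  · right
    have h5 : RepT (σ * τ) (mulT sylZT (mulT t s)) := by
      rw [h]
      exact sylZ_rep.mul (hτ.mul hσ)
    have h6 := canonT_eq_of_repT (hσ.mul hτ) h5
    rwa [canonT_mulT, canonT_mulT] at h6

theorem commZ_to {σ τ : Equiv.Perm Cfsg.GolayPt} {s t : ℕ} (hσ : RepT σ s) (hτ : RepT τ t)
    (h : commZ s t = true) : σ * τ = τ * σ ∨ σ * τ = sylZ.1 * (τ * σ) := by
  unfold commZ commZAux at h
  rw [Bool.or_eq_true, beq_iff_eq, beq_iff_eq] at h
  rcases h with h | h
  · left
    have h1 := hσ.mul hτ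
    rw [h] at h1
    exact h1.ext (hτ.mul hσ)
  · right
    have h1 := hσ.mul hτ
    rw [h] at h1
    exact h1.ext (sylZ_rep.mul (hτ.mul hσ))

/-- Of an element and its product with the central involution, one has the smaller table. -/
theorem sylCanon_or {σ τ : Equiv.Perm Cfsg.GolayPt} {s t : ℕ} (hσ : RepT σ s) (hτ : RepT τ t)
    (h : τ = sylZ.1 * σ) : sylCanon s = true ∨ sylCanon t = true := by
  unfold sylCanon
  rw [decide_eq_true_eq, decide_eq_true_eq]
  have h1 : canonT t = mulT sylZT s := by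
    have h2 : RepT τ (mulT sylZT s) := by
      rw [h]
      exact sylZ_rep.mul hσ
    have h3 := canonT_eq_of_repT hτ h2
    rwa [canonT_mulT] at h3
  have h4 : canonT s = mulT sylZT t := by
    have h2 : RepT σ (mulT sylZT t) := by
      have h5 : σ = sylZ.1 * τ := by
        rw [h, ← mul_assoc]
        have h6 : sylZ.1 * sylZ.1 = 1 := congrArg Subtype.val sylZ_sq
        rw [h6, one_mul]
      rw [h5]
      exact sylZ_rep.mul hτ
    have h3 := canonT_eq_of_repT hσ h2
    rwa [canonT_mulT] at h3
  rw [← h1, ← h4]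
  exact le_total _ _

end Cfsg.Agent.Lib.Helper26
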