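import Mathlib

set_option autoImplicit false

namespace Cfsg.Agent.Lib.Helper26

/-- An abelian subgroup `A` of order 64 and index 8 whose elements commuting with the coset
representatives are few is the only abelian subgroup of order 64. -/
theorem abelian_unique {S : Type*} [Group S] [Finite S] (A : Subgroup S)
    (hA : ∀ a ∈ A, ∀ b ∈ A, a * b = b * a) (hAc : Nat.card ↥A = 64)
    (r : Fin 8 → S) (hr0 : r 0 = 1)
    (hcos : ∀ s : S, ∃ k : Fin 8, ∃ a ∈ A, s = a * r k)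
    (h1 : ∀ k : Fin 8, k ≠ 0 → {a : S | a ∈ A ∧ a * r k = r k * a}.ncard ≤ 16)
    (h2 : ∀ k l : Fin 8, k ≠ 0 → l ≠ 0 → k ≠ l →
      {a : S | a ∈ A ∧ a * r k = r k * a ∧ a * r l = r l * a}.ncard ≤ 8)
    (h3 : {a : S | a ∈ A ∧ ∀ k : Fin 8, a * r k = r k * a}.ncard ≤ 4)
    (B : Subgroup S) (hB : ∀ a ∈ B, ∀ b ∈ B, a * b = b * a) (hBc : Nat.card ↥B = 64) :
    B = A := by
  classical
  choose κ α hα hs using hcos
  have key : ∀ b ∈ B, ∀ c ∈ B ⊓ A, c * r (κ b) = r (κ b) * c := by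
    intro b hb c hc
    have hcB : c ∈ B := hc.1
    have hcA : c ∈ A := hc.2
    have e1 : c * b = b * c := hB c hcB b hb
    have e2 : c * α b = α b * c := hA c hcA (α b) (hα b)
    have e1' : c * (α b * r (κ b)) = (α b * r (κ b)) * c := by
      rw [← hs b]
      exact e1
    have e3 : α b * (c * r (κ b)) = α b * (r (κ b) * c) := by
      calc α b * (c * r (κ b)) = c * (α b * r (κ b)) := by rw [← mul_assoc, ← e2, mul_assoc]
        _ = (α b * r (κ b)) * c := e1'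
        _ = α b * (r (κ b) * c) := mul_assoc _ _ _
    exact mul_left_cancel e3
  have hmemK : ∀ b ∈ B, ∀ b' ∈ B, κ b = κ b' → b * b'⁻¹ ∈ B ⊓ A := by
    intro b hb b' hb' hk
    refine ⟨B.mul_mem hb (B.inv_mem hb'), ?_⟩
    have eb := hs b
    have eb' := hs b'
    rw [hk] at eb
    have e : b * b'⁻¹ = α b * (α b')⁻¹ := by
      calc b * b'⁻¹ = (α b * r (κ b')) * (α b' * r (κ b'))⁻¹ := by rw [← eb, ← eb']
        _ = α b * (α b')⁻¹ := by group
    rw [e]
    exact A.mul_mem (hα b) (A.inv_mem (hα b'))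
  have hcount : Nat.card ↥B ≤ Nat.card ↥(B ⊓ A) * (κ '' (B : Set S)).ncard := by
    have hrep : ∀ t : ↥(κ '' (B : Set S)), ∃ b ∈ B, κ b = t.1 := fun t => t.2
    choose β hβ hβκ using hrep
    let τ : ↥B → ↥(κ '' (B : Set S)) := fun b => ⟨κ b.1, b.1, b.2, rfl⟩
    let φ : ↥B → ↥(B ⊓ A) × ↥(κ '' (B : Set S)) := fun b =>
      (⟨b.1 * (β (τ b))⁻¹, hmemK b.1 b.2 (β (τ b)) (hβ (τ b)) (hβκ (τ b)).symm⟩, τ b)
    have hinj : Function.Injective φ := by
      intro b b' h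
      have h2 : τ b = τ b' := congrArg Prod.snd h
      have h1 : b.1 * (β (τ b))⁻¹ = b'.1 * (β (τ b'))⁻¹ :=
        congrArg (fun p : ↥(B ⊓ A) × ↥(κ '' (B : Set S)) => (p.1 : S)) h
      rw [h2] at h1
      exact Subtype.ext (mul_right_cancel h1)
    have h := Nat.card_le_card_of_injective φ hinj
    rw [Nat.card_prod, Nat.card_coe_set_eq] at h
    exact h
  have hKle : ∀ (Q : S → Prop), (∀ c ∈ B ⊓ A, Q c) →
      Nat.card ↥(B ⊓ A) ≤ {a : S | a ∈ A ∧ Q a}.ncard := by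
    intro Q hQ
    have e : Nat.card ↥(B ⊓ A) = ((B ⊓ A : Subgroup S) : Set S).ncard :=
      Nat.card_coe_set_eq _
    rw [e]
    exact Set.ncard_le_ncard (fun c hc => ⟨hc.2, hQ c hc⟩) (Set.toFinite _)
  by_contra hne
  have hnle : ¬ B ≤ A := fun hle =>
    hne (Subgroup.eq_of_le_of_card_ge hle (by rw [hAc, hBc]))
  obtain ⟨b0, hb0, hb0A⟩ := SetLike.not_le_iff_exists.mp hnle
  have hk0 : κ b0 ≠ 0 := by
    intro h
    apply hb0A
    have e := hs b0
    rw [h, hr0, mul_one] at e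
    rw [e]
    exact hα b0
  have hT8 : (κ '' (B : Set S)).ncard ≤ 8 := by
    have h := Set.ncard_le_ncard (Set.subset_univ (κ '' (B : Set S))) (Set.toFinite _)
    rwa [Set.ncard_univ, Nat.card_fin] at h
  -- first bound
  have hK1 : Nat.card ↥(B ⊓ A) ≤ 16 :=
    (hKle (fun a => a * r (κ b0) = r (κ b0) * a) (key b0 hb0)).trans (h1 _ hk0)
  have hT4 : 4 ≤ (κ '' (B : Set S)).ncard := by
    by_contra hlt
    have h5 : (κ '' (B : Set S)).ncard ≤ 3 := by omega
    have h6 := Nat.mul_le_mul hK1 h5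
    omega
  have hpair : ({0, κ b0} : Set (Fin 8)).ncard < (κ '' (B : Set S)).ncard := by
    have h5 : ({0, κ b0} : Set (Fin 8)).ncard = 2 := Set.ncard_pair (Ne.symm hk0)
    omega
  obtain ⟨t, ht, htn⟩ := Set.exists_mem_notMem_of_ncard_lt_ncard hpair (Set.toFinite _)
  obtain ⟨b1, hb1, rfl⟩ := ht
  have hk1 : κ b1 ≠ 0 := fun h => htn (by rw [h]; exact Set.mem_insert _ _)
  have hk01 : κ b0 ≠ κ b1 := fun h =>
    htn (by rw [← h]; exact Set.mem_insert_of_mem _ (Set.mem_singleton _))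
  -- second bound
  have hK2 : Nat.card ↥(B ⊓ A) ≤ 8 :=
    (hKle (fun a => a * r (κ b0) = r (κ b0) * a ∧ a * r (κ b1) = r (κ b1) * a)
      (fun c hc => ⟨key b0 hb0 c hc, key b1 hb1 c hc⟩)).trans (h2 _ _ hk0 hk1 hk01)
  have hT8' : 8 ≤ (κ '' (B : Set S)).ncard := by
    by_contra hlt
    have h5 : (κ '' (B : Set S)).ncard ≤ 7 := by omega
    have h6 := Nat.mul_le_mul hK2 h5
    omega
  have hTu : κ '' (B : Set S) = Set.univ :=
    Set.eq_of_subset_of_ncard_le (Set.subset_univ _)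
      (by rw [Set.ncard_univ, Nat.card_fin]; exact hT8') (Set.toFinite _)
  -- third bound
  have hK3 : Nat.card ↥(B ⊓ A) ≤ 4 := by
    refine (hKle (fun a => ∀ k : Fin 8, a * r k = r k * a) ?_).trans h3
    intro c hc k
    have hk : k ∈ κ '' (B : Set S) := by
      rw [hTu]
      exact Set.mem_univ k
    obtain ⟨b, hb, rfl⟩ := hk
    exact key b hb c hc
  have h6 := Nat.mul_le_mul hK3 hT8
  omega

end Cfsg.Agent.Lib.Helper26
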