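import Cfsg.Agent.Lib.Helper26.SylGrp
import Cfsg.Agent.Lib.Helper26.SylUniq
import Cfsg.Agent.Lib.Helper1.PGroup
import Cfsg.Prelude.Def_Transfer

set_option autoImplicit false

namespace Cfsg.Agent.Lib.Helper26

open Cfsg.Agent.Lib.Helper7

/-! ### The quotient of the Sylow 2-subgroup by its centre -/

theorem syl_card_center : Nat.card ↥(Subgroup.center ↥sylP) = 2 := by
  have e : ((Subgroup.center ↥sylP : Subgroup ↥sylP) : Set ↥sylP) = {1, sylZ} := by
    ext g
    rw [SetLike.mem_coe, syl_center_iff]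
    rfl
  have h : Nat.card ↥(Subgroup.center ↥sylP)
      = ((Subgroup.center ↥sylP : Subgroup ↥sylP) : Set ↥sylP).ncard := Nat.card_coe_set_eq _
  rw [h, e, Set.ncard_pair sylZ_ne.symm]

theorem bits4 (e0 e1 e2 e3 : Bool) : ∃ v < 16, v.testBit 0 = e0 ∧ v.testBit 1 = e1 ∧
    v.testBit 2 = e2 ∧ v.testBit 3 = e3 := by
  revert e0 e1 e2 e3
  decide

theorem sylInM_step (v i p s : ℕ) (hs : s < 4)
    (hb : ∀ s' < 4, (sylCb i).testBit s' = ((sylCb p).testBit s' != (s' == s))) :
    sylInM v i = (sylInM v p != v.testBit s) := by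
  unfold sylInM
  rw [hb 0 (by norm_num), hb 1 (by norm_num), hb 2 (by norm_num), hb 3 (by norm_num)]
  generalize (sylCb p).testBit 0 = b0
  generalize (sylCb p).testBit 1 = b1
  generalize (sylCb p).testBit 2 = b2
  generalize (sylCb p).testBit 3 = b3
  interval_cases s
  all_goals
    generalize v.testBit 0 = v0
    generalize v.testBit 1 = v1
    generalize v.testBit 2 = v2
    generalize v.testBit 3 = v3
    revert v0 v1 v2 v3 b0 b1 b2 b3
    decide

theorem sylRho_lt' (k : ℕ) (hk : k < 8) : sylRho k < 1024 := by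
  have h := allB_spec sylRho_lt k hk
  simpa using h

theorem sylTl_lt' (q : ℕ) (hq : q < 20) : sylTl q < 1024 := by
  have h := allB_spec sylTl_lt q hq
  simpa using h

section

variable {S : Type*} [Group S] (f : ↥sylP →* S)

theorem syl_fker (hker : f.ker = Subgroup.center ↥sylP) (g h : ↥sylP) :
    f g = f h ↔ (g = h ∨ g = sylZ * h) := by
  rw [MonoidHom.eq_iff, hker, syl_center_iff]
  constructor
  · rintro (e | e)
    · left
      exact (inv_mul_eq_one.mp e).symm
    · right
      rw [sylZ_comm]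
      exact eq_mul_of_inv_mul_eq e
  · rintro (rfl | rfl)
    · left
      exact inv_mul_cancel _
    · right
      rw [sylZ_comm, inv_mul_cancel_left]

theorem syl_fcomm (hker : f.ker = Subgroup.center ↥sylP) (g h : ↥sylP) {s t : ℕ}
    (hg : RepT g.1 s) (hh : RepT h.1 t) : f g * f h = f h * f g ↔ commZ s t = true := by
  rw [← map_mul, ← map_mul, syl_fker f hker]
  constructor
  · intro e
    apply commZ_of hg hh
    rcases e with e | e
    · left
      exact congrArg Subtype.val e
    · right
      exact congrArg Subtype.val e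
  · intro e
    rcases commZ_to hg hh e with e | e
    · left
      exact Subtype.ext e
    · right
      exact Subtype.ext e

theorem syl_card_S (hf : Function.Surjective f) (hker : f.ker = Subgroup.center ↥sylP) :
    Nat.card S = 512 := by
  have h1 : f.ker.index = Nat.card ↥f.range := Subgroup.index_ker f
  have h2 : Nat.card ↥f.range = Nat.card S := by
    rw [MonoidHom.range_eq_top.mpr hf]
    exact Subgroup.card_top
  have h3 := Subgroup.card_mul_index f.ker
  rw [h1, h2, hker, syl_card_center, sylP_table.2] at h3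
  omega

/-- The image of the subgroup of order 128. -/
noncomputable def sylA0 : Subgroup S := (sylA.subgroupOf sylP).map f

theorem mem_sylA0 {s : S} : s ∈ sylA0 f ↔ ∃ g : ↥sylP, g.1 ∈ sylA ∧ f g = s := by
  unfold sylA0
  rw [Subgroup.mem_map]
  constructor
  · rintro ⟨g, hg, rfl⟩
    exact ⟨g, Subgroup.mem_subgroupOf.mp hg, rfl⟩
  · rintro ⟨g, hg, rfl⟩
    exact ⟨g, Subgroup.mem_subgroupOf.mpr hg, rfl⟩

theorem card_sylA0 (hf : Function.Surjective f) (hker : f.ker = Subgroup.center ↥sylP) :
    Nat.card ↥(sylA0 f) = 64 := by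
  have hle : f.ker ≤ sylA.subgroupOf sylP := by
    rw [hker]
    intro g hg
    rw [syl_center_iff] at hg
    rw [Subgroup.mem_subgroupOf]
    rcases hg with rfl | rfl
    · exact Subgroup.one_mem _
    · exact sylZ_memA
  have h1 : (sylA0 f).index = (sylA.subgroupOf sylP).index := Subgroup.index_map_eq _ hf hle
  have h2 := Subgroup.card_mul_index (sylA.subgroupOf sylP)
  have h3 : Nat.card ↥(sylA.subgroupOf sylP) = 128 := by
    rw [Nat.card_congr (Subgroup.subgroupOfEquivOfLe sylA_le).toEquiv, sylA_table.2]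
  rw [h3, sylP_table.2] at h2
  have h4 := Subgroup.card_mul_index (sylA0 f)
  rw [h1, syl_card_S f hf hker] at h4
  have h5 : (sylA.subgroupOf sylP).index = 8 := by omega
  rw [h5] at h4
  omega

theorem sylA0_comm (hker : f.ker = Subgroup.center ↥sylP) :
    ∀ a ∈ sylA0 f, ∀ b ∈ sylA0 f, a * b = b * a := by
  intro a ha b hb
  obtain ⟨g, hg, rfl⟩ := (mem_sylA0 f).mp ha
  obtain ⟨h, hh, rfl⟩ := (mem_sylA0 f).mp hb
  obtain ⟨j, hj, hrep, rfl⟩ := sylYs_surj g hg
  obtain ⟨j', hj', hrep', rfl⟩ := sylYs_surj h hh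
  rcases Nat.lt_trichotomy j j' with hlt | heq | hgt
  · have hc := allB_spec (allB_spec sylA_comm j' hj') j hlt
    exact ((syl_fcomm f hker _ _ hrep' hrep).mpr hc).symm
  · rw [heq]
  · have hc := allB_spec (allB_spec sylA_comm j hj) j' hgt
    exact (syl_fcomm f hker _ _ hrep hrep').mpr hc

theorem sylA0_sq (hker : f.ker = Subgroup.center ↥sylP) : ∀ a ∈ sylA0 f, a ^ 2 = 1 := by
  intro a ha
  obtain ⟨g, hg, rfl⟩ := (mem_sylA0 f).mp ha
  obtain ⟨j, hj, hrep, rfl⟩ := sylYs_surj g hg
  have hc := allB_spec sylA_sq j hj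
  unfold commZAux at hc
  rw [Bool.or_eq_true, beq_iff_eq, beq_iff_eq] at hc
  rw [pow_two, ← map_mul, ← map_one f, syl_fker f hker]
  rcases hc with hc | hc
  · left
    apply Subtype.ext
    have h1 := hrep.mul hrep
    rw [← hc] at h1
    exact h1.ext repT_one
  · right
    apply Subtype.ext
    have h1 := sylZ_rep.mul (hrep.mul hrep)
    rw [← hc] at h1
    have h2 : sylZ.1 * ((sylYs j).1 * (sylYs j).1) = 1 := h1.ext repT_one
    have h3 : sylZ.1 * sylZ.1 = 1 := congrArg Subtype.val sylZ_sq
    show (sylYs j).1 * (sylYs j).1 = sylZ.1 * 1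
    rw [mul_one]
    calc (sylYs j).1 * (sylYs j).1
        = sylZ.1 * (sylZ.1 * ((sylYs j).1 * (sylYs j).1)) := by rw [← mul_assoc, h3, one_mul]
      _ = sylZ.1 := by rw [h2, mul_one]

/-- Counting classes with a property through the small table. -/
theorem sylA_count [Finite S] (hker : f.ker = Subgroup.center ↥sylP) (Q : S → Prop)
    (q : ℕ → Bool) (hq : ∀ j < 128, Q (f (sylYs j)) → q j = true) :
    {a : S | a ∈ sylA0 f ∧ Q a}.ncard ≤ cntL (fun j => (sylACm j).testBit 8 && q j) 128 := by
  classical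
  rw [cntL_eq]
  have hsub : {a : S | a ∈ sylA0 f ∧ Q a} ⊆ (fun j => f (sylYs j)) ''
      (((Finset.range 128).filter
        (fun j => ((sylACm j).testBit 8 && q j) = true) : Finset ℕ) : Set ℕ) := by
    rintro a ⟨haA, haQ⟩
    obtain ⟨g, hg, rfl⟩ := (mem_sylA0 f).mp haA
    obtain ⟨j, hj, hrep, rfl⟩ := sylYs_surj g hg
    have hg' : (sylZ * sylYs j).1 ∈ sylA := sylA.mul_mem sylZ_memA (sylYs_mem hj)
    obtain ⟨j', hj', hrep', e'⟩ := sylYs_surj (sylZ * sylYs j) hg'
    have hf' : f (sylYs j') = f (sylYs j) := by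
      rw [← e']
      exact (syl_fker f hker _ _).mpr (Or.inr rfl)
    have hc := sylCanon_or hrep hrep' rfl
    have hb := allB_spec sylA_cm j hj
    have hb' := allB_spec sylA_cm j' hj'
    simp only [Bool.and_eq_true, beq_iff_eq] at hb hb'
    rcases hc with hc | hc
    · refine ⟨j, ?_, rfl⟩
      rw [Finset.coe_filter, Set.mem_ofPred_eq, Finset.mem_range, Bool.and_eq_true]
      exact ⟨hj, by rw [← hb.2]; exact hc, hq j hj haQ⟩
    · refine ⟨j', ?_, hf'⟩
      rw [Finset.coe_filter, Set.mem_ofPred_eq, Finset.mem_range, Bool.and_eq_true]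
      exact ⟨hj', by rw [← hb'.2]; exact hc, hq j' hj' (by rw [hf']; exact haQ)⟩
  calc {a : S | a ∈ sylA0 f ∧ Q a}.ncard
      ≤ ((fun j => f (sylYs j)) '' (((Finset.range 128).filter
        (fun j => ((sylACm j).testBit 8 && q j) = true) : Finset ℕ) : Set ℕ)).ncard :=
        Set.ncard_le_ncard hsub (Set.toFinite _)
    _ ≤ ((((Finset.range 128).filter
        (fun j => ((sylACm j).testBit 8 && q j) = true) : Finset ℕ) : Set ℕ)).ncard :=
        Set.ncard_image_le (Finset.finite_toSet _)
    _ = _ := Set.ncard_coe_finset _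

/-- Counting classes with a property through the large table. -/
theorem sylP_count [Finite S] (hf : Function.Surjective f)
    (hker : f.ker = Subgroup.center ↥sylP) (Q : S → Prop)
    (q : ℕ → Bool) (hq : ∀ i < 1024, Q (f (sylXs i)) → q i = true) :
    {a : S | Q a}.ncard ≤ cntL (fun i => q i && sylCanon (sylTab i)) 1024 := by
  classical
  rw [cntL_eq]
  have hsub : {a : S | Q a} ⊆ (fun i => f (sylXs i)) ''
      (((Finset.range 1024).filter
        (fun i => (q i && sylCanon (sylTab i)) = true) : Finset ℕ) : Set ℕ) := by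
    intro a haQ
    rw [Set.mem_ofPred_eq] at haQ
    obtain ⟨g, rfl⟩ := hf a
    obtain ⟨i, hi, hrep, rfl⟩ := sylXs_surj g
    obtain ⟨i', hi', hrep', e'⟩ := sylXs_surj (sylZ * sylXs i)
    have hf' : f (sylXs i') = f (sylXs i) := by
      rw [← e']
      exact (syl_fker f hker _ _).mpr (Or.inr rfl)
    have hc := sylCanon_or hrep hrep' rfl
    rcases hc with hc | hc
    · refine ⟨i, ?_, rfl⟩
      rw [Finset.coe_filter, Set.mem_ofPred_eq, Finset.mem_range, Bool.and_eq_true]
      exact ⟨hi, hq i hi haQ, hc⟩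
    · refine ⟨i', ?_, hf'⟩
      rw [Finset.coe_filter, Set.mem_ofPred_eq, Finset.mem_range, Bool.and_eq_true]
      exact ⟨hi', hq i' hi' (by rw [hf']; exact haQ), hc⟩
  calc {a : S | Q a}.ncard
      ≤ ((fun i => f (sylXs i)) '' (((Finset.range 1024).filter
        (fun i => (q i && sylCanon (sylTab i)) = true) : Finset ℕ) : Set ℕ)).ncard :=
        Set.ncard_le_ncard hsub (Set.toFinite _)
    _ ≤ ((((Finset.range 1024).filter
        (fun i => (q i && sylCanon (sylTab i)) = true) : Finset ℕ) : Set ℕ)).ncard :=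
        Set.ncard_image_le (Finset.finite_toSet _)
    _ = _ := Set.ncard_coe_finset _

/-- The coset representatives in the quotient. -/
noncomputable def sylR (k : Fin 8) : S := f (sylXs (sylRho k.1))

theorem sylR_zero : sylR f 0 = 1 := by
  unfold sylR
  have h : sylRho (0 : Fin 8).1 = 1023 := rfl
  rw [h, sylXs_root, map_one]

theorem syl_cos (hf : Function.Surjective f) (s : S) :
    ∃ k : Fin 8, ∃ a ∈ sylA0 f, s = a * sylR f k := by
  obtain ⟨g, rfl⟩ := hf s
  obtain ⟨i, hi, hrep, rfl⟩ := sylXs_surj g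
  have h := allB_spec syl_coset i hi
  simp only [Bool.and_eq_true, decide_eq_true_eq, beq_iff_eq] at h
  obtain ⟨⟨h1, h2⟩, h3⟩ := h
  refine ⟨⟨sylKc i, h2⟩, f (sylYs (sylJa i)), (mem_sylA0 f).mpr ⟨_, sylYs_mem h1, rfl⟩, ?_⟩
  have h4 := (sylYs_rep h1).mul (sylXs_rep (sylRho_lt' _ h2))
  rw [h3] at h4
  have hx : sylXs i = sylYs (sylJa i) * sylXs (sylRho (sylKc i)) := Subtype.ext (hrep.ext h4)
  show f (sylXs i) = f (sylYs (sylJa i)) * f (sylXs (sylRho (sylKc i)))
  rw [← map_mul, ← hx]

theorem sylA_bit (hker : f.ker = Subgroup.center ↥sylP) (j : ℕ) (hj : j < 128) (k : Fin 8)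
    (e : f (sylYs j) * sylR f k = sylR f k * f (sylYs j)) : (sylACm j).testBit k.1 = true := by
  have hc := (syl_fcomm f hker _ _ (sylYs_rep hj) (sylXs_rep (sylRho_lt' k.1 k.2))).mp e
  have hb := allB_spec sylA_cm j hj
  simp only [Bool.and_eq_true] at hb
  have hb2 := allB_spec hb.1 k.1 k.2
  rw [beq_iff_eq] at hb2
  rw [← hb2]
  exact hc

theorem sylInM_iff (M : Subgroup S) (hidx : M.index = 2)
    (v : ℕ) (hv : ∀ s < 4, (v.testBit s = true ↔ f (sylGam s) ∉ M)) :
    ∀ d, ∀ i < 1024, sylDep i = d → (f (sylXs i) ∈ M ↔ sylInM v i = true) := by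
  intro d
  induction d using Nat.strong_induction_on with
  | _ d ih =>
    intro i hi hd
    by_cases hroot : i = 1023
    · subst hroot
      rw [sylXs_root, map_one]
      have h1 : sylInM v 1023 = true := by
        unfold sylInM
        rw [syl_cb_root]
        simp
      simp [h1, M.one_mem]
    · have h := allB_spec syl_reach i hi
      rw [Bool.or_eq_true] at h
      rcases h with h | h
      · rw [beq_iff_eq] at h
        exact absurd h hroot
      simp only [Bool.and_eq_true, decide_eq_true_eq, beq_iff_eq] at h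
      obtain ⟨⟨⟨h1, h2⟩, h3⟩, h4⟩ := h
      have h3' : sylGen i < 4 := h3
      have hstep := allB_spec (allB_spec syl_nxt (sylPar i) h1) (sylGen i) h3
      simp only [Bool.and_eq_true, decide_eq_true_eq, beq_iff_eq] at hstep
      rw [h4] at hstep
      have hx : sylXs i = sylGam (sylGen i) * sylXs (sylPar i) := by
        apply Subtype.ext
        have h5 := (sylGam_rep (sylGen i)).mul (sylXs_rep h1)
        rw [hstep.2] at h5
        exact (sylXs_rep hi).ext h5
      have ihp := ih (sylDep (sylPar i)) (by omega) (sylPar i) h1 rfl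
      have hcb := allB_spec syl_cb i hi
      rw [Bool.or_eq_true] at hcb
      rcases hcb with hcb | hcb
      · rw [beq_iff_eq] at hcb
        exact absurd hcb hroot
      have hb : ∀ s' < 4, (sylCb i).testBit s' =
          ((sylCb (sylPar i)).testBit s' != (s' == sylGen i)) := by
        intro s' hs'
        have h5 := allB_spec hcb s' hs'
        exact beq_iff_eq.mp h5
      rw [hx, map_mul, Subgroup.mul_mem_iff_of_index_two hidx, ihp,
        sylInM_step v i (sylPar i) (sylGen i) h3' hb]
      have hvs := hv (sylGen i) h3'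
      by_cases hm : f (sylGam (sylGen i)) ∈ M
      · have hvf : v.testBit (sylGen i) = false := by
          by_contra hc
          exact (hvs.mp (by simpa using hc)) hm
        rw [hvf]
        cases sylInM v (sylPar i) <;> simp [hm]
      · have hvt : v.testBit (sylGen i) = true := hvs.mpr hm
        rw [hvt]
        cases sylInM v (sylPar i) <;> simp [hm]

theorem syl_max_center [Finite S] (hf : Function.Surjective f)
    (hker : f.ker = Subgroup.center ↥sylP) (M : Subgroup S) (hM : IsCoatom M) :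
    Nat.card ↥(Subgroup.center ↥M) ≤ 8 := by
  classical
  have hcard := syl_card_S f hf hker
  have hpS : IsPGroup 2 S := IsPGroup.of_card (n := 9) (by rw [hcard]; norm_num)
  have : Fact (Nat.Prime 2) := ⟨Nat.prime_two⟩
  have hidx : M.index = 2 := Cfsg.Agent.Lib.Helper1.coatom_index_of_pGroup 2 hpS M hM
  obtain ⟨v, hv16, b0, b1, b2, b3⟩ := bits4 (decide (f (sylGam 0) ∉ M))
    (decide (f (sylGam 1) ∉ M)) (decide (f (sylGam 2) ∉ M)) (decide (f (sylGam 3) ∉ M))
  have hv : ∀ s < 4, (v.testBit s = true ↔ f (sylGam s) ∉ M) := by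
    intro s hs
    interval_cases s
    · rw [b0, decide_eq_true_iff]
    · rw [b1, decide_eq_true_iff]
    · rw [b2, decide_eq_true_iff]
    · rw [b3, decide_eq_true_iff]
  have hv0 : v ≠ 0 := by
    rintro rfl
    apply hM.1
    rw [eq_top_iff]
    intro s _
    obtain ⟨g, rfl⟩ := hf s
    obtain ⟨i, hi, -, rfl⟩ := sylXs_surj g
    rw [sylInM_iff f M hidx 0 hv _ i hi rfl]
    unfold sylInM
    simp
  have hmain : {s : S | s ∈ M ∧ ∀ m ∈ M, s * m = m * s}.ncard ≤ cntL (sylGoodZ v) 1024 := by
    have h := sylP_count f hf hker (fun s => s ∈ M ∧ ∀ m ∈ M, s * m = m * s)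
      (fun i => sylInM v i && allB (fun q => !(sylInM v (sylTl q)) ||
        commZ (sylTab i) (sylTab (sylTl q))) 20) ?_
    · exact h
    · rintro i hi ⟨hiM, hcomm⟩
      rw [Bool.and_eq_true]
      refine ⟨(sylInM_iff f M hidx v hv _ i hi rfl).mp hiM, allB_of ?_⟩
      intro q hq
      have hq' : sylTl q < 1024 := sylTl_lt' q hq
      rw [Bool.or_eq_true]
      by_cases hin : sylInM v (sylTl q) = true
      · right
        have hmem := (sylInM_iff f M hidx v hv _ (sylTl q) hq' rfl).mpr hin
        exact (syl_fcomm f hker _ _ (sylXs_rep hi) (sylXs_rep hq')).mp (hcomm _ hmem)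
      · left
        simpa using hin
  have hle : Nat.card ↥(Subgroup.center ↥M)
      ≤ {s : S | s ∈ M ∧ ∀ m ∈ M, s * m = m * s}.ncard := by
    rw [← Nat.card_coe_set_eq]
    let φ : ↥(Subgroup.center ↥M) → ↥{s : S | s ∈ M ∧ ∀ m ∈ M, s * m = m * s} := fun c =>
      ⟨c.1.1, c.1.2, fun m hm =>
        (congrArg Subtype.val (Subgroup.mem_center_iff.mp c.2 ⟨m, hm⟩)).symm⟩
    refine Nat.card_le_card_of_injective φ (fun c c' h => ?_)
    have h' : (φ c).1 = (φ c').1 := congrArg Subtype.val h
    exact Subtype.ext (Subtype.ext h')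
  have hchk := allB_spec syl_max v hv16
  simp only [Bool.or_eq_true, beq_iff_eq, decide_eq_true_eq] at hchk
  rcases hchk with hchk | hchk
  · exact absurd hchk hv0
  · exact hle.trans (hmain.trans hchk)

/-- The three properties of the quotient of the Sylow 2-subgroup by its centre. -/
theorem syl_main (hf : Function.Surjective f) (hker : f.ker = Subgroup.center ↥sylP) :
    (∀ M : Subgroup S, IsCoatom M → Nat.card ↥(Subgroup.center ↥M) ≤ 8) ∧
    (∃ A : Subgroup S, Cfsg.IsElementaryAbelian 2 A ∧ Nat.card ↥A = 64) ∧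
    ∀ A B : Subgroup S, IsMulCommutative ↥A → Nat.card ↥A = 64 → IsMulCommutative ↥B →
      Nat.card ↥B = 64 → A = B := by
  have : Finite S := Finite.of_surjective f hf
  have huniq : ∀ B : Subgroup S, IsMulCommutative ↥B → Nat.card ↥B = 64 → B = sylA0 f := by
    intro B hBc hB
    refine abelian_unique (sylA0 f) (sylA0_comm f hker) (card_sylA0 f hf hker) (sylR f)
      (sylR_zero f) (syl_cos f hf) ?_ ?_ ?_ B ?_ hB
    · intro k hk
      have h := sylA_count f hker (fun a => a * sylR f k = sylR f k * a)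
        (fun j => (sylACm j).testBit k.1) (fun j hj e => sylA_bit f hker j hj k e)
      have hchk := allB_spec sylA_cnt1 k.1 k.2
      simp only [Bool.or_eq_true, beq_iff_eq, decide_eq_true_eq] at hchk
      rcases hchk with hchk | hchk
      · exact absurd (Fin.ext hchk) hk
      · exact h.trans hchk
    · intro k l hk hl hkl
      have h := sylA_count f hker
        (fun a => a * sylR f k = sylR f k * a ∧ a * sylR f l = sylR f l * a)
        (fun j => (sylACm j).testBit k.1 && (sylACm j).testBit l.1)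
        (fun j hj e => by
          rw [Bool.and_eq_true]
          exact ⟨sylA_bit f hker j hj k e.1, sylA_bit f hker j hj l e.2⟩)
      have hchk := allB_spec (allB_spec sylA_cnt2 k.1 k.2) l.1 l.2
      simp only [Bool.or_eq_true, beq_iff_eq, decide_eq_true_eq] at hchk
      rcases hchk with ((hchk | hchk) | hchk) | hchk
      · exact absurd (Fin.ext hchk) hk
      · exact absurd (Fin.ext hchk) hl
      · exact absurd (Fin.ext hchk) hkl
      · have e : (fun j => (sylACm j).testBit 8 &&
            ((sylACm j).testBit k.1 && (sylACm j).testBit l.1))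
            = (fun j => (sylACm j).testBit 8 && (sylACm j).testBit k.1 &&
              (sylACm j).testBit l.1) :=
          funext (fun j => (Bool.and_assoc _ _ _).symm)
        rw [e] at h
        exact h.trans hchk
    · have h := sylA_count f hker (fun a => ∀ k : Fin 8, a * sylR f k = sylR f k * a)
        (fun j => allB (fun k => (sylACm j).testBit k) 8)
        (fun j hj e => allB_of (fun k hk => sylA_bit f hker j hj ⟨k, hk⟩ (e ⟨k, hk⟩)))
      have hchk := sylA_cnt3
      rw [decide_eq_true_eq] at hchk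
      exact h.trans hchk
    · intro a ha b hb
      have h := hBc.is_comm.comm (⟨a, ha⟩ : ↥B) ⟨b, hb⟩
      exact congrArg Subtype.val h
  refine ⟨fun M hM => syl_max_center f hf hker M hM,
    ⟨sylA0 f, ⟨?_, sylA0_sq f hker⟩, card_sylA0 f hf hker⟩, ?_⟩
  · exact ⟨⟨fun a b => Subtype.ext (sylA0_comm f hker a.1 a.2 b.1 b.2)⟩⟩
  · intro A B hA hAc hB hBc
    rw [huniq A hA hAc, huniq B hB hBc]

end

end Cfsg.Agent.Lib.Helper26
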